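/-
Fixed-point-free automorphisms of order dividing four: the action on a nilpotent
group of automorphisms of an abelian group.
-/
import Mathlib

set_option autoImplicit false

namespace Cfsg.Agent.Lib.Coprime.FPF4

universe u

/-- A fixed-point-free endomorphism of a finite group: every element is `h⁻¹ * α h`. -/
theorem exists_inv_mul_eq {K : Type*} [Group K] [Finite K] (α : K →* K)
    (hα : ∀ x, α x = x → x = 1) (g : K) : ∃ h, h⁻¹ * α h = g := by
  have hinj : Function.Injective (fun h : K => h⁻¹ * α h) := by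
    intro m n hmn
    have h1 : m⁻¹ * α m = n⁻¹ * α n := hmn
    have h2 : α (n * m⁻¹) = n * m⁻¹ := by
      have h3 : α n = n * m⁻¹ * α m := by rw [mul_assoc, h1]; group
      rw [map_mul, map_inv, h3]; group
    have := hα _ h2
    exact (mul_inv_eq_one.mp this).symm
  exact Finite.injective_iff_surjective.mp hinj g

/-- The counting lemma: a fixed-point-free automorphism induces a fixed-point-free automorphism
on quotients. -/
theorem fpf_of_surjective {K K₁ : Type*} [Group K] [Group K₁] [Finite K] (f : K →* K₁)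
    (hf : Function.Surjective f) (α : K →* K) (α₁ : K₁ →* K₁) (h : ∀ x, f (α x) = α₁ (f x))
    (hα : ∀ x, α x = x → x = 1) : ∀ x, α₁ x = x → x = 1 := by
  intro x₁ hx₁
  obtain ⟨x, rfl⟩ := hf x₁
  have hαk : ∀ n ∈ f.ker, α n ∈ f.ker := by
    intro n hn
    rw [MonoidHom.mem_ker, h, MonoidHom.mem_ker.mp hn, map_one]
  let αk : f.ker →* f.ker := (α.comp f.ker.subtype).codRestrict f.ker (fun n => hαk n.1 n.2)
  have hαk' : ∀ x, αk x = x → x = 1 := by
    intro n hn
    have : α n.1 = n.1 := congrArg Subtype.val hn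
    exact Subtype.ext (hα _ this)
  have hk : x⁻¹ * α x ∈ f.ker := by
    rw [MonoidHom.mem_ker, map_mul, map_inv, h, hx₁]; simp
  obtain ⟨n, hn⟩ := exists_inv_mul_eq αk hαk' ⟨_, hk⟩
  have h3 : n.1⁻¹ * α n.1 = x⁻¹ * α x := congrArg Subtype.val hn
  have h4 : α (x * n.1⁻¹) = x * n.1⁻¹ := by
    have h5 : α x = x * n.1⁻¹ * α n.1 := by rw [mul_assoc, h3]; group
    rw [map_mul, map_inv, h5]; group
  have h6 : x = n.1 := mul_inv_eq_one.mp (hα _ h4)
  rw [h6]; exact MonoidHom.mem_ker.mp n.2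

/-- Conjugation by `S` as an endomorphism of an invariant subgroup. -/
def conjHom {T : Type*} [Group T] (S : T) (A : Subgroup T) (h : ∀ a ∈ A, S * a * S⁻¹ ∈ A) : A →* A :=
  MonoidHom.mk' (fun a => ⟨S * a.1 * S⁻¹, h a.1 a.2⟩) (by
    intro a b; ext; simp [mul_assoc])

@[simp] theorem conjHom_coe {T : Type*} [Group T] (S : T) (A : Subgroup T)
    (h : ∀ a ∈ A, S * a * S⁻¹ ∈ A) (a : A) : (conjHom S A h a : T) = S * a.1 * S⁻¹ := rfl

/-- Restriction of an automorphism to an invariant subgroup. -/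
def resAut {X : Type*} [Group X] (W : Subgroup X) (α : MulAut X) (h : ∀ v ∈ W, α v ∈ W)
    (h' : ∀ v ∈ W, α⁻¹ v ∈ W) : MulAut W where
  toFun v := ⟨α v, h v v.2⟩
  invFun v := ⟨α⁻¹ v, h' v v.2⟩
  left_inv v := by ext; simp
  right_inv v := by ext; simp
  map_mul' x y := by ext; simp

@[simp] theorem resAut_coe {X : Type*} [Group X] (W : Subgroup X) (α : MulAut X)
    (h : ∀ v ∈ W, α v ∈ W) (h' : ∀ v ∈ W, α⁻¹ v ∈ W) (v : W) :
    ((resAut W α h h' v : W) : X) = α v := rfl

@[simp] theorem resAut_inv_coe {X : Type*} [Group X] (W : Subgroup X) (α : MulAut X)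
    (h : ∀ v ∈ W, α v ∈ W) (h' : ∀ v ∈ W, α⁻¹ v ∈ W) (v : W) :
    (((resAut W α h h')⁻¹ v : W) : X) = α⁻¹ v := rfl

/-- A nontrivial nilpotent group has nontrivial centre. -/
theorem center_ne_bot_of_isNilpotent {G : Type*} [Group G] (hnil : Group.IsNilpotent G)
    (hG : Nontrivial G) : Subgroup.center G ≠ ⊥ := by
  intro hc
  have key : ∀ n, Subgroup.upperCentralSeries G n = ⊥ := by
    intro n
    induction n with
    | zero => exact Subgroup.upperCentralSeries_zero G
    | succ n ih =>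
      rw [eq_bot_iff]
      intro x hx
      rw [Subgroup.mem_upperCentralSeries_succ_iff, ih] at hx
      have : x ∈ Subgroup.center G := by
        rw [Subgroup.mem_center_iff]
        intro y
        have := hx y
        rw [Subgroup.mem_bot, commutatorElement_eq_one_iff_mul_comm] at this
        exact this.symm
      rwa [hc] at this
  obtain ⟨n, hn⟩ := hnil.nilpotent
  rw [key n] at hn
  obtain ⟨x, hx⟩ := exists_ne (1 : G)
  have : x ∈ (⊥ : Subgroup G) := hn ▸ Subgroup.mem_top x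
  exact hx (Subgroup.mem_bot.mp this)

section Key

variable {V : Type u} [CommGroup V] [Finite V]

theorem norm_eq_one (S : MulAut V) (hS : S ^ 4 = 1) (hfpf : ∀ v, S v = v → v = 1) (w : V) :
    w * S w * S (S w) * S (S (S w)) = 1 := by
  apply hfpf
  have h4 : S (S (S (S w))) = w := by
    have := congrArg (fun T : MulAut V => T w) hS
    simpa [pow_succ] using this
  simp only [map_mul, h4]
  rw [mul_comm]
  simp only [mul_assoc]

theorem eq_one_of_pow_eq_one_of_coprime {x : V} {n : ℕ} (h : x ^ n = 1)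
    (hc : n.Coprime (Nat.card V)) : x = 1 := by
  have : x ^ n.gcd (Nat.card V) = 1 := pow_gcd_eq_one.mpr ⟨h, pow_card_eq_one'⟩
  rw [hc] at this
  simpa using this

theorem eq_of_sq_eq_of_odd {T : Type*} [Group T] [Finite T] (hodd : Odd (Nat.card T)) {x y : T}
    (h : x * x = y * y) : x = y := by
  obtain ⟨k, hk⟩ := hodd
  have hx : ∀ z : T, (z * z) ^ (k + 1) = z := by
    intro z
    have h1 : z ^ (2 * k + 1) = 1 := by rw [← hk]; exact pow_card_eq_one'
    have : (z * z) ^ (k + 1) = z ^ (2 * k + 1) * z := by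
      rw [← pow_two, ← pow_mul, ← pow_succ]
      congr 1
    rw [this, h1, one_mul]
  rw [← hx x, h, hx y]

/-- `S` conjugation of order dividing four. -/
theorem conj_four {T : Type*} [Group T] (S : T) (hS : S ^ 4 = 1) (z : T) :
    S * (S * (S * (S * z * S⁻¹) * S⁻¹) * S⁻¹) * S⁻¹ = z := by
  have h1 : S * (S * (S * (S * z * S⁻¹) * S⁻¹) * S⁻¹) * S⁻¹ = S ^ 4 * z * (S ^ 4)⁻¹ := by
    simp only [pow_succ, pow_zero]; group
  rw [h1, hS]; simp

theorem inv_conj_eq {T : Type*} [Group T] (S : T) (hS : S ^ 4 = 1) (z : T) :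
    S⁻¹ * z * S = S * (S * (S * z * S⁻¹) * S⁻¹) * S⁻¹ := by
  have h := conj_four S hS (S⁻¹ * z * S)
  have h2 : S * (S⁻¹ * z * S) * S⁻¹ = z := by group
  rw [h2] at h
  exact h.symm

theorem conj2_mul {T : Type*} [Group T] (S x y : T) :
    S * (S * (x * y) * S⁻¹) * S⁻¹ = (S * (S * x * S⁻¹) * S⁻¹) * (S * (S * y * S⁻¹) * S⁻¹) := by
  simp only [mul_assoc, inv_mul_cancel_left]

theorem conj2_inv {T : Type*} [Group T] (S x : T) :
    S * (S * x⁻¹ * S⁻¹) * S⁻¹ = (S * (S * x * S⁻¹) * S⁻¹)⁻¹ := by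
  simp only [mul_inv_rev, inv_inv, mul_assoc]

/-- Step 1: an `S`-invariant subgroup inverted by the square of `S` is trivial. -/
theorem eq_one_of_inverted (S : MulAut V) (hS : S ^ 4 = 1) (hfpf : ∀ v, S v = v → v = 1)
    (Y : Subgroup (MulAut V)) (hinv : ∀ y ∈ Y, S * y * S⁻¹ ∈ Y)
    (hfix : ∀ y ∈ Y, S * y * S⁻¹ = y → y = 1)
    (hτ : ∀ y ∈ Y, S * (S * y * S⁻¹) * S⁻¹ = y⁻¹)
    (hodd : Odd (Nat.card Y)) (hcop : (Nat.card Y).Coprime (Nat.card V)) : ∀ y ∈ Y, y = 1 := by
  classical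
  have : Fintype Y := Fintype.ofFinite Y
  let c : Y →* Y := conjHom S Y hinv
  have hc : ∀ y : Y, c y = y → y = 1 := by
    intro y hy
    have : S * y.1 * S⁻¹ = y.1 := congrArg Subtype.val hy
    exact Subtype.ext (hfix _ y.2 this)
  have hcτ : ∀ y : Y, c (c y) = y⁻¹ := by
    intro y; exact Subtype.ext (hτ y.1 y.2)
  have hc3 : ∀ y : Y, c (c (c y)) = y → y = 1 := by
    intro y hy
    apply hc
    have h4 : c (c (c (c y))) = y := by
      rw [hcτ (c (c y)), hcτ y, inv_inv]
    have h5 : c (c (c (c y))) = c y := by rw [hy]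
    rw [h4] at h5
    exact h5.symm
  let P : V → V := fun u => ∏ y : Y, (y : MulAut V) u
  -- three bijections of `Y`
  let β₁ : Y → Y := fun y => y⁻¹ * c y
  let β₂ : Y → Y := fun y => y⁻¹ * y⁻¹
  let β₃ : Y → Y := fun y => y⁻¹ * c (c (c y))
  have hβ₁ : Function.Bijective β₁ := by
    rw [← Finite.injective_iff_bijective]
    intro m n hmn
    have h1 : m⁻¹ * c m = n⁻¹ * c n := hmn
    have h2 : c (n * m⁻¹) = n * m⁻¹ := by
      have h3 : c n = n * m⁻¹ * c m := by rw [mul_assoc, h1]; group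
      rw [map_mul, map_inv, h3]; group
    exact (mul_inv_eq_one.mp (hc _ h2)).symm
  have hβ₃ : Function.Bijective β₃ := by
    rw [← Finite.injective_iff_bijective]
    intro m n hmn
    have h1 : m⁻¹ * c (c (c m)) = n⁻¹ * c (c (c n)) := hmn
    have h2 : c (c (c (n * m⁻¹))) = n * m⁻¹ := by
      have h3 : c (c (c n)) = n * m⁻¹ * c (c (c m)) := by rw [mul_assoc, h1]; group
      simp only [map_mul, map_inv]
      rw [h3]; group
    exact (mul_inv_eq_one.mp (hc3 _ h2)).symm
  have hβ₂ : Function.Bijective β₂ := by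
    rw [← Finite.injective_iff_bijective]
    intro m n hmn
    have h1 : m⁻¹ * m⁻¹ = n⁻¹ * n⁻¹ := hmn
    have h2 : m * m = n * n := by
      have := congrArg (fun x => x⁻¹) h1
      simpa using this
    exact eq_of_sq_eq_of_odd hodd h2
  -- the pointwise identity
  have hform : ∀ (y : Y) (v : V),
      v * (β₁ y : MulAut V) (S v) * (β₂ y : MulAut V) (S (S v)) * (β₃ y : MulAut V) (S (S (S v)))
        = 1 := by
    intro y v
    have hN := norm_eq_one S hS hfpf ((y : MulAut V) v)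
    have e0 : ∀ (T : MulAut V) (u : V), S (T u) = (S * T * S⁻¹) (S u) := by
      intro T u; simp [MulAut.mul_apply]
    have e1 : S ((y : MulAut V) v) = (c y : MulAut V) (S v) := e0 _ _
    have e2 : S (S ((y : MulAut V) v)) = ((y⁻¹ : Y) : MulAut V) (S (S v)) := by
      rw [e1, e0, ← hcτ y]; rfl
    have e3 : S (S (S ((y : MulAut V) v))) = (c (c (c y)) : MulAut V) (S (S (S v))) := by
      rw [e2, ← hcτ y, e0]; rfl
    rw [e3, e2, e1] at hN
    have := congrArg (fun u => ((y⁻¹ : Y) : MulAut V) u) hN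
    simp only [map_mul, map_one] at this
    have e4 : ((y⁻¹ : Y) : MulAut V) ((y : MulAut V) v) = v := by simp
    rw [e4] at this
    exact this
  have hprod : ∀ v : V, v ^ Nat.card Y * P (S v) * P (S (S v)) * P (S (S (S v))) = 1 := by
    intro v
    have h1 : ∏ y : Y, (v * (β₁ y : MulAut V) (S v) * (β₂ y : MulAut V) (S (S v))
        * (β₃ y : MulAut V) (S (S (S v)))) = 1 :=
      Finset.prod_eq_one (fun y _ => hform y v)
    rw [Finset.prod_mul_distrib, Finset.prod_mul_distrib, Finset.prod_mul_distrib,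
      Finset.prod_const, Finset.card_univ, ← Nat.card_eq_fintype_card] at h1
    rw [show ∏ y : Y, (β₁ y : MulAut V) (S v) = P (S v) from
        hβ₁.prod_comp (fun y : Y => (y : MulAut V) (S v)),
      show ∏ y : Y, (β₂ y : MulAut V) (S (S v)) = P (S (S v)) from
        hβ₂.prod_comp (fun y : Y => (y : MulAut V) (S (S v))),
      show ∏ y : Y, (β₃ y : MulAut V) (S (S (S v))) = P (S (S (S v))) from
        hβ₃.prod_comp (fun y : Y => (y : MulAut V) (S (S (S v))))] at h1
    exact h1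
  have hPfix : ∀ (y₀ : Y) (u : V), (y₀ : MulAut V) (P u) = P u := by
    intro y₀ u
    show (y₀ : MulAut V) (∏ y : Y, (y : MulAut V) u) = ∏ y : Y, (y : MulAut V) u
    rw [map_prod]
    exact Equiv.prod_comp (Equiv.mulLeft y₀) (fun y : Y => (y : MulAut V) u)
  intro y hy
  have : ∀ v, y v = v := by
    intro v
    have hv := hprod v
    have hfixed : y (v ^ Nat.card Y) = v ^ Nat.card Y := by
      have h1 : v ^ Nat.card Y = (P (S v) * P (S (S v)) * P (S (S (S v))))⁻¹ := by
        apply eq_inv_of_mul_eq_one_left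
        rw [← hv]; simp only [mul_assoc]
      rw [h1, map_inv, map_mul, map_mul]
      have hP := hPfix ⟨y, hy⟩
      simp only at hP
      rw [hP, hP, hP]
    rw [map_pow] at hfixed
    have h2 : (y v * v⁻¹) ^ Nat.card Y = 1 := by
      rw [mul_pow, hfixed, inv_pow, mul_inv_cancel]
    exact mul_inv_eq_one.mp (eq_one_of_pow_eq_one_of_coprime h2 hcop)
  exact MulEquiv.ext this

variable (S : MulAut V) (hS : S ^ 4 = 1) (hfpf : ∀ v, S v = v → v = 1)
  (Z : Subgroup (MulAut V)) (hcomm : ∀ x ∈ Z, ∀ y ∈ Z, x * y = y * x)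
  (hinv : ∀ z ∈ Z, S * z * S⁻¹ ∈ Z) (hfix : ∀ z ∈ Z, S * z * S⁻¹ = z → z = 1)
  (hodd : Odd (Nat.card Z)) (hcop : (Nat.card Z).Coprime (Nat.card V))

include hS hfpf hcomm hinv hfix hodd hcop

/-- Step 2: the square of `S` centralizes an abelian invariant `Z`. -/
theorem central_fix : ∀ z ∈ Z, S * (S * z * S⁻¹) * S⁻¹ = z := by
  let Y : Subgroup (MulAut V) :=
    { carrier := {y | y ∈ Z ∧ S * (S * y * S⁻¹) * S⁻¹ = y⁻¹}
      one_mem' := ⟨Z.one_mem, by simp⟩
      mul_mem' := by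
        rintro a b ⟨ha, ha'⟩ ⟨hb, hb'⟩
        refine ⟨Z.mul_mem ha hb, ?_⟩
        rw [conj2_mul, ha', hb', mul_inv_rev, hcomm _ (Z.inv_mem hb) _ (Z.inv_mem ha)]
      inv_mem' := by
        rintro a ⟨ha, ha'⟩
        refine ⟨Z.inv_mem ha, ?_⟩
        rw [conj2_inv, ha'] }
  have hYZ : Y ≤ Z := fun y hy => hy.1
  have hdvd : Nat.card Y ∣ Nat.card Z := Subgroup.card_dvd_of_le hYZ
  have hY := eq_one_of_inverted S hS hfpf Y
    (by
      rintro y ⟨hy, hy'⟩
      refine ⟨hinv y hy, ?_⟩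
      rw [show S * (S * y * S⁻¹) * S⁻¹ = y⁻¹ from hy']
      simp only [mul_inv_rev, inv_inv, mul_assoc])
    (fun y hy => hfix y hy.1)
    (fun y hy => hy.2)
    (Odd.of_dvd_nat hodd hdvd)
    (Nat.Coprime.coprime_dvd_left hdvd hcop)
  intro z hz
  set t := S * (S * z * S⁻¹) * S⁻¹ with ht
  have htZ : t ∈ Z := hinv _ (hinv _ hz)
  have hmem : z⁻¹ * t ∈ Y := by
    refine ⟨Z.mul_mem (Z.inv_mem hz) htZ, ?_⟩
    have h4 : S * (S * t * S⁻¹) * S⁻¹ = z := by
      rw [ht]; exact conj_four S hS z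
    have h5 : S * (S * (z⁻¹ * t) * S⁻¹) * S⁻¹ = t⁻¹ * (S * (S * t * S⁻¹) * S⁻¹) := by
      rw [conj2_mul, conj2_inv]
    rw [h5, h4]; group
  have := hY _ hmem
  exact (inv_mul_eq_one.mp this).symm

/-- Step 3: the elements `v * S² v` are centralized by `Z`. -/
theorem mul_sq_fixed (v : V) : ∀ z ∈ Z, z (v * S (S v)) = v * S (S v) := by
  have hτ := central_fix S hS hfpf Z hcomm hinv hfix hodd hcop
  have hcomS : ∀ x ∈ Z, ∀ u, S (S (x u)) = x (S (S u)) := by
    intro x hx u
    conv_rhs => rw [← hτ x hx]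
    simp [MulAut.mul_apply]
  set w := v * S (S v) with hw
  have hA : ∀ x ∈ Z, S (x w) = (x w)⁻¹ := by
    intro x hx
    have hN := norm_eq_one S hS hfpf (x v)
    rw [hcomS x hx v] at hN
    have : x w * S (x w) = 1 := by
      rw [hw, map_mul, map_mul]
      rw [← hN]
      simp only [mul_assoc, mul_comm, mul_left_comm]
    exact eq_inv_of_mul_eq_one_right this
  have hw1 : S w = w⁻¹ := by simpa using hA 1 Z.one_mem
  have hB : ∀ z ∈ Z, (z⁻¹ * (S * z * S⁻¹)) (S w) = S w := by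
    intro z hz
    have h1 : (S * z * S⁻¹) (S w) = S (z w) := by simp [MulAut.mul_apply]
    have h2 : S (z w) = z (S w) := by
      rw [hA z hz, hw1, map_inv]
    rw [MulAut.mul_apply, h1, h2]
    simp
  intro z hz
  -- write `z` as a commutator with `S`
  obtain ⟨h, hh⟩ := exists_inv_mul_eq (conjHom S Z hinv)
    (fun y hy => Subtype.ext (hfix y.1 y.2 (congrArg Subtype.val hy))) ⟨z, hz⟩
  have hh' : h.1⁻¹ * (S * h.1 * S⁻¹) = z := congrArg Subtype.val hh
  have := hB h.1 h.2
  rw [hh', hw1, map_inv] at this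
  exact inv_injective this

end Key

section Final

variable {V : Type u} [CommGroup V] [Finite V]

/-- Steps 4 and 5. -/
theorem conj_sq_eq_of_subgroup (S : MulAut V) (hS : S ^ 4 = 1)
    (A : Subgroup (MulAut V)) (hinv : ∀ a ∈ A, S * a * S⁻¹ ∈ A)
    (W : Subgroup V) (hWS : ∀ v, v * S (S v) ∈ W) (hWa : ∀ a ∈ A, ∀ w ∈ W, a w ∈ W)
    (hIH : ∀ a ∈ A, ∀ w ∈ W, (S * (S * a * S⁻¹) * S⁻¹) w = a w)
    (hoddV : Odd (Nat.card V)) (hcop : (Nat.card A).Coprime (Nat.card V)) :
    ∀ a ∈ A, S * (S * a * S⁻¹) * S⁻¹ = a := by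
  intro a ha
  set b := S * (S * a * S⁻¹) * S⁻¹ with hb
  have hbA : b ∈ A := hinv _ (hinv _ ha)
  have hba : S * (S * b * S⁻¹) * S⁻¹ = a := by rw [hb]; exact conj_four S hS a
  have hod : ∀ d : V, S (S d) = d → d ∈ W := by
    intro d hd
    have h1 : d * d ∈ W := by
      have := hWS d
      rwa [hd] at this
    obtain ⟨k, hk⟩ := hoddV
    have h2 : (d * d) ^ (k + 1) = d := by
      have h3 : d ^ (2 * k + 1) = 1 := by rw [← hk]; exact pow_card_eq_one'
      have : (d * d) ^ (k + 1) = d ^ (2 * k + 1) * d := by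
        rw [← pow_two, ← pow_mul, ← pow_succ]
        congr 1
      rw [this, h3, one_mul]
    rw [← h2]
    exact W.pow_mem h1 _
  have hd : ∀ v : V, b v * (a v)⁻¹ ∈ W := by
    intro v
    apply hod
    have hIHv := hIH a ha _ (hWS v)
    rw [map_mul, map_mul] at hIHv
    have e1 : (S * (S * a * S⁻¹) * S⁻¹) v = b v := rfl
    have e2 : (S * (S * a * S⁻¹) * S⁻¹) (S (S v)) = S (S (a v)) := by
      simp [MulAut.mul_apply]
    have e3 : a (S (S v)) = S (S (b v)) := by
      conv_lhs => rw [← hba]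
      simp [MulAut.mul_apply]
    rw [e1, e2, e3] at hIHv
    rw [map_mul, map_mul, map_inv, map_inv]
    rw [mul_inv_eq_iff_eq_mul, mul_comm (b v), mul_assoc, hIHv, inv_mul_cancel_left]
  set g := b * a⁻¹ with hg
  have hgA : g ∈ A := A.mul_mem hbA (A.inv_mem ha)
  have hgW : ∀ w ∈ W, g w = w := by
    intro w hw
    have h1 : a⁻¹ w ∈ W := hWa _ (A.inv_mem ha) _ hw
    have := hIH a ha _ h1
    show b (a⁻¹ w) = w
    have h2 : (S * (S * a * S⁻¹) * S⁻¹) (a⁻¹ w) = b (a⁻¹ w) := rfl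
    rw [← h2, this]
    simp
  have hev : ∀ v : V, g v * v⁻¹ ∈ W := by
    intro v
    have := hd (a⁻¹ v)
    simpa [hg, MulAut.mul_apply] using this
  have hgv : ∀ v : V, g v = v := by
    intro v
    set e := g v * v⁻¹ with he
    have heW : e ∈ W := hev v
    have hge : g e = e := hgW e heW
    have hpow : ∀ n : ℕ, (g ^ n) v = v * e ^ n := by
      intro n
      induction n with
      | zero => simp
      | succ n ih =>
        rw [pow_succ', MulAut.mul_apply, ih, map_mul, map_pow, hge, he]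
        rw [pow_succ, ← he]
        have : g v = v * e := by rw [he]; simp
        rw [this]
        simp only [mul_assoc, mul_comm, mul_left_comm]
    have hgn : g ^ Nat.card A = 1 := by
      have : ((⟨g, hgA⟩ : A) : MulAut V) ^ Nat.card A = 1 := by
        have h1 : (⟨g, hgA⟩ : A) ^ Nat.card A = 1 := pow_card_eq_one'
        exact_mod_cast congrArg Subtype.val h1
      simpa using this
    have h3 := hpow (Nat.card A)
    rw [hgn] at h3
    have h4 : e ^ Nat.card A = 1 := by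
      have h5 : v = v * e ^ Nat.card A := by simpa using h3
      exact (mul_eq_left.mp h5.symm)
    have h5 : e = 1 := eq_one_of_pow_eq_one_of_coprime h4 hcop
    exact mul_inv_eq_one.mp h5
  have hgone : g = 1 := MulEquiv.ext hgv
  exact mul_inv_eq_one.mp hgone

end Final

/-- **Key lemma.** Let `S` be an automorphism of a finite abelian group `V` with `S ^ 4 = 1`
and no nontrivial fixed point, and `A ≤ Aut V` a nilpotent group normalized by `S` with `S`
acting fixed-point-freely on it, of coprime order, with `|A|` and `|V|` odd.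
Then the square of `S` centralizes `A`. -/
theorem conj_sq_eq : ∀ (n : ℕ) (V : Type u) [CommGroup V] [Finite V] (S : MulAut V)
    (A : Subgroup (MulAut V)), Nat.card A = n → S ^ 4 = 1 → (∀ v, S v = v → v = 1) →
    (∀ a ∈ A, S * a * S⁻¹ ∈ A) → Group.IsNilpotent A → (∀ a ∈ A, S * a * S⁻¹ = a → a = 1) →
    (Nat.card A).Coprime (Nat.card V) → Odd (Nat.card A) → Odd (Nat.card V) →
    ∀ a ∈ A, S * (S * a * S⁻¹) * S⁻¹ = a := by
  intro n
  induction n using Nat.strong_induction_on with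
  | _ n IH =>
  intro V _ _ S A hcard hS hfpf hinv hnil hfix hcop hoddA hoddV
  by_cases hbot : A = ⊥
  · intro a ha
    subst hbot
    rw [Subgroup.mem_bot] at ha
    subst ha
    simp
  -- the centre of `A`
  let Z : Subgroup (MulAut V) := A ⊓ Subgroup.centralizer (A : Set (MulAut V))
  have hZA : Z ≤ A := inf_le_left
  have hZc : ∀ z ∈ Z, ∀ a ∈ A, z * a = a * z := by
    intro z hz a ha
    have := (Subgroup.mem_inf.mp hz).2
    rw [Subgroup.mem_centralizer_iff] at this
    exact (this a ha).symm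
  have hcomm : ∀ x ∈ Z, ∀ y ∈ Z, x * y = y * x := fun x hx y hy => hZc x hx y (hZA hy)
  have hinv3 : ∀ a ∈ A, S⁻¹ * a * S ∈ A := by
    intro a ha
    rw [inv_conj_eq S hS]
    exact hinv _ (hinv _ (hinv _ ha))
  have hZS : ∀ z ∈ Z, S * z * S⁻¹ ∈ Z := by
    intro z hz
    refine Subgroup.mem_inf.mpr ⟨hinv _ (hZA hz), ?_⟩
    rw [Subgroup.mem_centralizer_iff]
    intro a ha
    have h1 := hZc z hz _ (hinv3 a ha)
    have h2 : a * (S * z * S⁻¹) = S * ((S⁻¹ * a * S) * z) * S⁻¹ := by group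
    have h3 : S * z * S⁻¹ * a = S * (z * (S⁻¹ * a * S)) * S⁻¹ := by group
    rw [h2, h3, h1]
  have hZS' : ∀ z ∈ Z, S⁻¹ * z * S ∈ Z := by
    intro z hz
    rw [inv_conj_eq S hS]
    exact hZS _ (hZS _ (hZS _ hz))
  have hdvdZ : Nat.card Z ∣ Nat.card A := Subgroup.card_dvd_of_le hZA
  have hoddZ : Odd (Nat.card Z) := Odd.of_dvd_nat hoddA hdvdZ
  have hcopZ : (Nat.card Z).Coprime (Nat.card V) := Nat.Coprime.coprime_dvd_left hdvdZ hcop
  have hfixZ : ∀ z ∈ Z, S * z * S⁻¹ = z → z = 1 := fun z hz => hfix z (hZA hz)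
  -- the fixed points of `Z`
  let W : Subgroup V :=
    { carrier := {v | ∀ z ∈ Z, z v = v}
      one_mem' := by intro z _; simp
      mul_mem' := by
        intro a b ha hb z hz
        rw [map_mul, ha z hz, hb z hz]
      inv_mem' := by
        intro a ha z hz
        rw [map_inv, ha z hz] }
  have hWmem : ∀ v, v ∈ W ↔ ∀ z ∈ Z, z v = v := fun v => Iff.rfl
  have hWa : ∀ a ∈ A, ∀ w ∈ W, a w ∈ W := by
    intro a ha w hw z hz
    have h1 : z (a w) = (z * a) w := rfl
    rw [h1, hZc z hz a ha, MulAut.mul_apply, hw z hz]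
  have hWS : ∀ w ∈ W, S w ∈ W := by
    intro w hw z hz
    have h1 : z (S w) = S ((S⁻¹ * z * S) w) := by simp [MulAut.mul_apply]
    rw [h1, hw _ (hZS' z hz)]
  have hWSinv : ∀ w ∈ W, S⁻¹ w ∈ W := by
    intro w hw z hz
    have h1 : z (S⁻¹ w) = S⁻¹ ((S * z * S⁻¹) w) := by simp [MulAut.mul_apply]
    rw [h1, hw _ (hZS z hz)]
  -- restriction
  let S₀ : MulAut W := resAut W S hWS hWSinv
  let r : A →* MulAut W := MonoidHom.mk'
    (fun a => resAut W a.1 (hWa a.1 a.2) (hWa a.1⁻¹ (A.inv_mem a.2))) (by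
      intro a b
      ext v
      rfl)
  have hrcoe : ∀ (a : A) (w : W), ((r a w : W) : V) = a.1 w := fun _ _ => rfl
  have hS₀coe : ∀ w : W, ((S₀ w : W) : V) = S w := fun _ => rfl
  have hS₀inv : ∀ w : W, ((S₀⁻¹ w : W) : V) = S⁻¹ w := fun _ => rfl
  have hrconj : ∀ a : A, S₀ * r a * S₀⁻¹ = r (conjHom S A hinv a) := by
    intro a
    ext w
    rfl
  let A₀ : Subgroup (MulAut W) := r.range
  have hinv₀ : ∀ a ∈ A₀, S₀ * a * S₀⁻¹ ∈ A₀ := by
    rintro _ ⟨a, rfl⟩
    rw [hrconj]
    exact ⟨_, rfl⟩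
  have hnil₀ : Group.IsNilpotent A₀ :=
    nilpotent_of_surjective r.rangeRestrict r.rangeRestrict_surjective
  have hfix₀ : ∀ a ∈ A₀, S₀ * a * S₀⁻¹ = a → a = 1 := by
    intro a ha hfa
    have := fpf_of_surjective r.rangeRestrict r.rangeRestrict_surjective
      (conjHom S A hinv) (conjHom S₀ A₀ hinv₀)
      (by
        intro x
        apply Subtype.ext
        exact (hrconj x).symm)
      (by
        intro x hx
        exact Subtype.ext (hfix x.1 x.2 (congrArg Subtype.val hx)))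
      ⟨a, ha⟩ (Subtype.ext hfa)
    exact congrArg Subtype.val this
  have hcard₀dvd : Nat.card A₀ ∣ Nat.card A := Subgroup.card_range_dvd r
  have hVdvd : Nat.card W ∣ Nat.card V := Subgroup.card_subgroup_dvd_card W
  have hcop₀ : (Nat.card A₀).Coprime (Nat.card W) :=
    Nat.Coprime.coprime_dvd_left hcard₀dvd (Nat.Coprime.coprime_dvd_right hVdvd hcop)
  have hoddA₀ : Odd (Nat.card A₀) := Odd.of_dvd_nat hoddA hcard₀dvd
  have hoddW : Odd (Nat.card W) := Odd.of_dvd_nat hoddV hVdvd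
  have hS₀4 : S₀ ^ 4 = 1 := by
    apply MulEquiv.ext
    intro w
    have h0 : (S₀ ^ 4) w = S₀ (S₀ (S₀ (S₀ w))) := by simp [pow_succ]
    rw [h0]
    apply Subtype.ext
    have h1 := congrArg (fun T : MulAut V => T w.1) hS
    have h2 : S (S (S (S w.1))) = w.1 := by simpa [pow_succ] using h1
    exact h2
  have hS₀fpf : ∀ w : W, S₀ w = w → w = 1 := by
    intro w hw
    exact Subtype.ext (hfpf w.1 (congrArg Subtype.val hw))
  -- the order drops
  have hltA : Nat.card A₀ < Nat.card A := by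
    have hle : Nat.card A₀ ≤ Nat.card A := Nat.le_of_dvd Nat.card_pos hcard₀dvd
    refine lt_of_le_of_ne hle ?_
    intro heq
    have hbij := (Nat.bijective_iff_surjective_and_card r.rangeRestrict).2
      ⟨r.rangeRestrict_surjective, heq.symm⟩
    have hnt : Nontrivial A := by
      rw [Subgroup.nontrivial_iff_ne_bot]
      exact hbot
    have hc := center_ne_bot_of_isNilpotent hnil hnt
    obtain ⟨x, hx1⟩ := (Subgroup.ne_bot_iff_exists_ne_one).1 hc
    apply hx1
    have hxZ : x.1.1 ∈ Z := by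
      refine Subgroup.mem_inf.mpr ⟨x.1.2, ?_⟩
      rw [Subgroup.mem_centralizer_iff]
      intro a ha
      have h2 := Subgroup.mem_center_iff.mp x.2 ⟨a, ha⟩
      exact congrArg Subtype.val h2
    have hr1 : r.rangeRestrict x.1 = r.rangeRestrict 1 := by
      apply Subtype.ext
      rw [map_one]
      apply MulEquiv.ext
      intro w
      apply Subtype.ext
      exact w.2 _ hxZ
    have := hbij.1 hr1
    exact Subtype.ext this
  have hIH₀ := IH _ (hcard ▸ hltA) W S₀ A₀ rfl hS₀4 hS₀fpf hinv₀ hnil₀ hfix₀ hcop₀ hoddA₀ hoddW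
  have hrest : ∀ a ∈ A, ∀ w ∈ W, (S * (S * a * S⁻¹) * S⁻¹) w = a w := by
    intro a ha w hw
    have h1 := hIH₀ (r ⟨a, ha⟩) ⟨_, rfl⟩
    have h2 := congrArg (fun T : MulAut W => ((T ⟨w, hw⟩ : W) : V)) h1
    exact h2
  exact conj_sq_eq_of_subgroup S hS A hinv W
    (fun v z hz => mul_sq_fixed S hS hfpf Z hcomm hZS hfixZ hoddZ hcopZ v z hz)
    hWa hrest hoddV hcop

end Cfsg.Agent.Lib.Coprime.FPF4
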