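import Mathlib
import Cfsg.Agent.Lib.Thompson.Main
import Cfsg.Agent.Lib.Coprime.PrimeGraph2F

/-!
# Kegel's theorem: a finite group with a splitting automorphism of prime order is nilpotent

`nm φ x n = x φ(x) ⋯ φ^(n-1)(x)`.  `Spl p φ`: `nm φ x p = 1` for all `x`.  Twisting `φ` by an inner
automorphism preserves `Spl`, so every Sylow subgroup is invariant under a splitting automorphism.
Key lemma: for `φ`-invariant `L` normalizing an abelian `φ`-invariant `V` of coprime order, `L`
centralizes `V`.  The rest follows Thompson's argument (Glauberman-Thompson normal `p`-complement).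
-/

set_option autoImplicit false
set_option linter.unusedVariables false
set_option linter.style.haveILetI false
set_option linter.unusedSectionVars false

universe u

namespace Cfsg.Agent.Lib.Coprime.Kegel

open Subgroup Cfsg Cfsg.Agent.Lib.Basic.PCore Cfsg.Agent.Lib.PGroup.ZJ Cfsg.Agent.Lib.Transfer.Basic
open Cfsg.Agent.Lib.Thompson.Transport Cfsg.Agent.Lib.Thompson.Main
open scoped Pointwise

section basic

variable {G : Type*} [Group G]

/-- The partial norm. -/
def nm (φ : MulAut G) (x : G) (n : ℕ) : G := ((List.range n).map (fun i => (φ ^ i) x)).prod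

/-- Splitting. -/
def Spl (p : ℕ) (φ : MulAut G) : Prop := ∀ x, nm φ x p = 1

theorem nm_zero (φ : MulAut G) (x : G) : nm φ x 0 = 1 := by simp [nm]

theorem nm_succ (φ : MulAut G) (x : G) (n : ℕ) : nm φ x (n + 1) = nm φ x n * (φ ^ n) x := by
  simp [nm, List.range_succ]

theorem nm_one (φ : MulAut G) (x : G) : nm φ x 1 = x := by
  rw [nm_succ, nm_zero, one_mul, pow_zero]
  rfl

theorem nm_add (φ : MulAut G) (x : G) (a b : ℕ) :
    nm φ x (a + b) = nm φ x a * (φ ^ a) (nm φ x b) := by
  induction b with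
  | zero => rw [nm_zero, map_one, add_zero, mul_one]
  | succ b ih =>
    rw [← add_assoc, nm_succ, ih, nm_succ, map_mul, pow_add, mul_assoc]
    rfl

/-- Hom-compatibility. -/
theorem nm_hom {A B : Type*} [Group A] [Group B] (f : A →* B) (φA : MulAut A) (φB : MulAut B)
    (h : ∀ x, f (φA x) = φB (f x)) (x : A) (n : ℕ) : f (nm φA x n) = nm φB (f x) n := by
  have hpow : ∀ (i : ℕ) (y : A), f ((φA ^ i) y) = (φB ^ i) (f y) := by
    intro i
    induction i with
    | zero => intro y; rfl
    | succ i ih =>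
      intro y
      rw [pow_succ', pow_succ']
      change f (φA ((φA ^ i) y)) = φB ((φB ^ i) (f y))
      rw [h, ih]
  induction n with
  | zero => rw [nm_zero, nm_zero, map_one]
  | succ n ih => rw [nm_succ, nm_succ, map_mul, ih, hpow]

theorem nm_mul_eq_one {p : ℕ} {φ : MulAut G} (h : Spl p φ) (x : G) (k : ℕ) : nm φ x (p * k) = 1 := by
  induction k with
  | zero => rw [mul_zero, nm_zero]
  | succ k ih => rw [mul_add, mul_one, nm_add, ih, h x, map_one, mul_one]

theorem pow_eq_one_of_spl {p : ℕ} {φ : MulAut G} (h : Spl p φ) : φ ^ p = 1 := by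
  ext x
  have h1 := nm_add φ x p 1
  have h2 := nm_add φ x 1 p
  rw [h x, one_mul, nm_one] at h1
  rw [add_comm 1 p, h x, map_one, mul_one, nm_one] at h2
  rw [h1] at h2
  exact h2

/-- Fixed elements of a splitting automorphism. -/
theorem pow_nm (φ : MulAut G) (x : G) (i j : ℕ) : nm φ x (i * j) = nm (φ ^ i) (nm φ x i) j := by
  induction j with
  | zero => rw [mul_zero, nm_zero, nm_zero]
  | succ j ih =>
    rw [mul_add, mul_one, nm_add, ih, nm_succ, ← pow_mul]

/-- The partial norms are injective for `i` prime to `p`. -/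
theorem nm_injective {p : ℕ} (hp : p.Prime) {φ : MulAut G} (h : Spl p φ) {i : ℕ}
    (hi : i.Coprime p) : Function.Injective (fun x => nm φ x i) := by
  obtain ⟨j, -, hj⟩ := Nat.exists_mul_mod_eq_one_of_coprime hi hp.one_lt
  have hij : i * j = p * (i * j / p) + 1 := by
    have := Nat.div_add_mod (i * j) p
    rw [hj] at this
    exact this.symm
  have key : ∀ x, nm (φ ^ i) (nm φ x i) j = x := by
    intro x
    rw [← pow_nm, hij, nm_add, nm_mul_eq_one h, one_mul, nm_one, pow_mul, pow_eq_one_of_spl h,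
      one_pow]
    rfl
  intro x y hxy
  have hxy' : nm φ x i = nm φ y i := hxy
  rw [← key x, ← key y, hxy']

/-- The twist of `φ` by an inner automorphism. -/
def tw (φ : MulAut G) (g : G) : MulAut G := MulAut.conj g * φ

theorem tw_apply (φ : MulAut G) (g x : G) : tw φ g x = g * φ x * g⁻¹ := rfl

theorem aut_conj (ψ : MulAut G) (g : G) : ψ * MulAut.conj g = MulAut.conj (ψ g) * ψ := by
  ext x
  change ψ (g * x * g⁻¹) = ψ g * ψ x * (ψ g)⁻¹
  simp

theorem tw_pow (φ : MulAut G) (g : G) (n : ℕ) :
    (tw φ g) ^ n = MulAut.conj (nm φ g n) * φ ^ n := by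
  induction n with
  | zero => rw [pow_zero, pow_zero, nm_zero, map_one, mul_one]
  | succ n ih =>
    rw [pow_succ, ih, nm_succ, map_mul, tw, mul_assoc (MulAut.conj (nm φ g n)), ← mul_assoc (φ ^ n),
      aut_conj, mul_assoc (MulAut.conj ((φ ^ n) g)), ← pow_succ, mul_assoc]

theorem tw_pow_apply (φ : MulAut G) (g x : G) (n : ℕ) :
    ((tw φ g) ^ n) x = nm φ g n * (φ ^ n) x * (nm φ g n)⁻¹ := by
  rw [tw_pow]
  rfl

theorem tw_nm (φ : MulAut G) (g x : G) (n : ℕ) :
    nm (tw φ g) x n = nm φ (x * g) n * (nm φ g n)⁻¹ := by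
  induction n with
  | zero => rw [nm_zero, nm_zero, nm_zero]; simp
  | succ n ih =>
    rw [nm_succ, ih, tw_pow_apply, nm_succ, nm_succ, map_mul]
    group

theorem tw_spl {p : ℕ} {φ : MulAut G} (h : Spl p φ) (g : G) : Spl p (tw φ g) := by
  intro x
  rw [tw_nm, h, h, inv_one, one_mul]

/-- Elements of `φ`-invariant subgroups. -/
theorem nm_mem {φ : MulAut G} {L : Subgroup G} (hL : ∀ x ∈ L, φ x ∈ L) {x : G} (hx : x ∈ L) (n : ℕ) :
    nm φ x n ∈ L := by
  have hpow : ∀ i : ℕ, (φ ^ i) x ∈ L := by
    intro i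
    induction i with
    | zero => exact hx
    | succ i ih =>
      rw [pow_succ']
      exact hL _ ih
  induction n with
  | zero => rw [nm_zero]; exact L.one_mem
  | succ n ih => rw [nm_succ]; exact L.mul_mem ih (hpow n)

/-- Key lemma. -/
theorem centralizes [Finite G] {p : ℕ} (hp : p.Prime) {φ : MulAut G} (hφ : Spl p φ) (L V : Subgroup G)
    (hL : ∀ x ∈ L, φ x ∈ L) (hV : ∀ x ∈ V, φ x ∈ V) (hVc : ∀ a ∈ V, ∀ b ∈ V, a * b = b * a)
    (hLV : L ≤ normalizer (V : Set G)) (hcop : (Nat.card L).Coprime (Nat.card V)) :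
    ∀ l ∈ L, ∀ v ∈ V, l * v = v * l := by
  classical
  haveI := Fintype.ofFinite L
  letI cg : CommGroup V :=
    { (inferInstance : Group V) with
      mul_comm := fun a b => Subtype.ext (hVc a a.2 b b.2) }
  -- the conjugation action of `L` on `V`
  have hconjmem : ∀ (u : L) (y : V), (u : G) * y * (u : G)⁻¹ ∈ V := fun u y =>
    (Subgroup.mem_normalizer_iff.mp (hLV u.2) y).mp y.2
  let c : L → V →* V := fun u =>
    { toFun := fun y => ⟨(u : G) * y * (u : G)⁻¹, hconjmem u y⟩
      map_one' := by
        apply Subtype.ext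
        simp
      map_mul' := by
        intro a b
        apply Subtype.ext
        change (u : G) * ((a : G) * (b : G)) * (u : G)⁻¹ =
          ((u : G) * a * (u : G)⁻¹) * ((u : G) * b * (u : G)⁻¹)
        group }
  have hc : ∀ (u : L) (y : V), ((c u y : V) : G) = (u : G) * y * (u : G)⁻¹ := fun _ _ => rfl
  have hcmul : ∀ (u₁ u₂ : L) (y : V), c u₁ (c u₂ y) = c (u₁ * u₂) y := by
    intro u₁ u₂ y
    apply Subtype.ext
    rw [hc, hc, hc]
    push_cast
    group
  have hcone : ∀ y : V, c 1 y = y := by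
    intro y
    apply Subtype.ext
    rw [hc]
    simp
  let T : V → V := fun y => ∏ u : L, c u y
  have hT : ∀ (l : L) (y : V), c l (T y) = T y := by
    intro l y
    change c l (∏ u : L, c u y) = ∏ u : L, c u y
    rw [map_prod]
    simp only [hcmul]
    exact Fintype.prod_equiv (Equiv.mulLeft l) _ _ (fun u => rfl)
  intro l₀ hl₀ v₀ hv₀
  let v : V := ⟨v₀, hv₀⟩
  have hpowV : ∀ i : ℕ, (φ ^ i) v₀ ∈ V := by
    intro i
    induction i with
    | zero => exact hv₀
    | succ i ih =>
      rw [pow_succ']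
      exact hV _ ih
  let vi : ℕ → V := fun i => ⟨(φ ^ i) v₀, hpowV i⟩
  let w : ℕ → L → L := fun i l => ⟨nm φ l i, nm_mem hL l.2 i⟩
  -- the norm of the twisted automorphism
  have hnorm : ∀ (l : L) (n : ℕ),
      ((∏ i ∈ Finset.range n, c (w i l) (vi i) : V) : G) = nm (tw φ (l : G)) v₀ n := by
    intro l n
    induction n with
    | zero => simp [nm_zero]
    | succ n ih =>
      rw [Finset.prod_range_succ, nm_succ, ← ih, tw_pow_apply]
      rfl
  have h1 : ∀ l : L, ∏ i ∈ Finset.range p, c (w i l) (vi i) = 1 := by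
    intro l
    apply Subtype.ext
    rw [hnorm, tw_spl hφ (l : G) v₀]
    rfl
  have h2 : ∏ i ∈ Finset.range p, ∏ l : L, c (w i l) (vi i) = 1 := by
    rw [Finset.prod_comm]
    exact Finset.prod_eq_one (fun l _ => h1 l)
  -- the bijections
  have hbij : ∀ i : ℕ, 0 < i → i < p → Function.Bijective (w i) := by
    intro i hi0 hip
    apply Finite.injective_iff_bijective.mp
    intro l₁ l₂ hl
    have hcopi : i.Coprime p := (Nat.coprime_comm.mp ((Nat.Prime.coprime_iff_not_dvd hp).mpr
      (fun hd => by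
        have := Nat.le_of_dvd hi0 hd
        omega)))
    apply Subtype.ext
    apply nm_injective hp hφ hcopi
    exact congrArg Subtype.val hl
  obtain ⟨p', rfl⟩ : ∃ p', p = p' + 1 := ⟨p - 1, by have := hp.pos; omega⟩
  rw [Finset.prod_range_succ'] at h2
  have h3 : ∏ l : L, c (w 0 l) (vi 0) = v ^ Fintype.card L := by
    have : ∀ l : L, c (w 0 l) (vi 0) = v := by
      intro l
      have hw : w 0 l = 1 := by
        apply Subtype.ext
        change nm φ (l : G) 0 = 1
        exact nm_zero _ _
      rw [hw, hcone]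
      apply Subtype.ext
      rfl
    simp only [this]
    rw [Finset.prod_const]
    rfl
  have h4 : ∀ i ∈ Finset.range p', ∏ l : L, c (w (i + 1) l) (vi (i + 1)) = T (vi (i + 1)) := by
    intro i hi
    have hi' := Finset.mem_range.mp hi
    exact (hbij (i + 1) (Nat.succ_pos i) (by omega)).prod_comp (fun u => c u (vi (i + 1)))
  rw [Finset.prod_congr rfl h4, h3] at h2
  have h5 : v ^ Fintype.card L = (∏ i ∈ Finset.range p', T (vi (i + 1)))⁻¹ :=
    eq_inv_of_mul_eq_one_right h2
  have hfixed : c ⟨l₀, hl₀⟩ (v ^ Fintype.card L) = v ^ Fintype.card L := by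
    rw [h5, map_inv, map_prod]
    congr 1
    exact Finset.prod_congr rfl (fun i _ => hT _ _)
  have hcopv : (Fintype.card L).Coprime (orderOf v) := by
    rw [← Nat.card_eq_fintype_card]
    exact Nat.Coprime.coprime_dvd_right (orderOf_dvd_natCard v) hcop
  obtain ⟨m, hm⟩ := exists_pow_eq_self_of_coprime hcopv
  have hfinal : c ⟨l₀, hl₀⟩ v = v := by
    rw [← hm, map_pow, hfixed]
  have h6 : l₀ * v₀ * l₀⁻¹ = v₀ := congrArg Subtype.val hfinal
  calc l₀ * v₀ = (l₀ * v₀ * l₀⁻¹) * l₀ := by group
    _ = v₀ * l₀ := by rw [h6]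

/-- Commuting nilpotent subgroups have a nilpotent join. -/
theorem nilpotent_sup (A B : Subgroup G) (hA : Group.IsNilpotent A) (hB : Group.IsNilpotent B)
    (hc : ∀ a ∈ A, ∀ b ∈ B, a * b = b * a) : Group.IsNilpotent ↥(A ⊔ B) := by
  have hcomm : ∀ (a : A) (b : B), Commute (A.subtype a) (B.subtype b) := fun a b => hc a a.2 b b.2
  let g : A × B →* G := MonoidHom.noncommCoprod A.subtype B.subtype hcomm
  have hr : g.range = A ⊔ B := by
    apply le_antisymm
    · rintro _ ⟨⟨a, b⟩, rfl⟩
      change (a : G) * (b : G) ∈ A ⊔ B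
      exact (A ⊔ B).mul_mem (le_sup_left (a := A) a.2) (le_sup_right (a := A) b.2)
    · apply sup_le
      · intro a ha
        exact ⟨(⟨a, ha⟩, 1), by simp [g]⟩
      · intro b hb
        exact ⟨(1, ⟨b, hb⟩), by simp [g]⟩
  rw [← hr]
  exact Group.nilpotent_of_surjective g.rangeRestrict g.rangeRestrict_surjective

end basic

/-- **Kegel's theorem.** -/
theorem kegel {p : ℕ} (hp : p.Prime) : ∀ (n : ℕ) (G : Type u) [Group G] [Finite G] (φ : MulAut G),
    Nat.card G = n → Spl p φ → Group.IsNilpotent G := by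
  intro n
  induction n using Nat.strong_induction_on with
  | _ n ih =>
    intro G _ _ φ hcard hφ
    classical
    by_contra hnil
    -- induction hypotheses
    have IHsub : ∀ ψ : MulAut G, Spl p ψ → ∀ H : Subgroup G, (∀ x ∈ H, ψ x ∈ H) → H ≠ ⊤ →
        Group.IsNilpotent H := by
      intro ψ hψ H hH hne
      obtain ⟨ψ', hψ'⟩ := exists_restrict ψ H hH
      refine ih _ ?_ H ψ' rfl ?_
      · rw [← hcard]
        exact Cfsg.Agent.Lib.Thompson.QuadraticBase.card_lt_of_ne_top hne
      · intro x
        apply H.subtype_injective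
        rw [map_one]
        rw [nm_hom H.subtype (ψ' : MulAut H) ψ hψ' x p]
        exact hψ _
    have IHquot : ∀ (N : Subgroup G) [N.Normal], (∀ x ∈ N, φ x ∈ N) → N ≠ ⊥ →
        Group.IsNilpotent (G ⧸ N) := by
      intro N _ hN hne
      obtain ⟨ψ, hψ⟩ := exists_quotient φ N hN
      refine ih _ ?_ (G ⧸ N) ψ rfl ?_
      · rw [← hcard, Subgroup.card_eq_card_quotient_mul_card_subgroup N]
        have h1 : 1 < Nat.card N := by
          have h2 : Nontrivial N := (Subgroup.nontrivial_iff_ne_bot N).mpr hne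
          exact Finite.one_lt_card
        have h3 : 0 < Nat.card (G ⧸ N) := Nat.card_pos
        nlinarith
      · intro x
        obtain ⟨y, rfl⟩ := QuotientGroup.mk_surjective x
        have h1 := nm_hom (QuotientGroup.mk' N) φ (ψ : MulAut (G ⧸ N)) (fun z => (hψ z).symm) y p
        rw [hφ y, map_one] at h1
        exact h1.symm
    -- twisting makes any Sylow subgroup invariant
    have htw : ∀ (s : ℕ) [Fact s.Prime] (S : Sylow s G), ∃ g : G, ∀ x ∈ (S : Subgroup G),
        (tw φ g) x ∈ (S : Subgroup G) := by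
      intro s _ S
      let S' : Sylow s G := S.mapSurjective (f := (φ : G →* G)) φ.surjective
      obtain ⟨g, hg⟩ := MulAction.exists_smul_eq G S' S
      refine ⟨g, fun x hx => ?_⟩
      have h1 : (φ x) ∈ (S' : Subgroup G) := ⟨x, hx, rfl⟩
      have h2 : (S : Subgroup G) = MulAut.conj g • (S' : Subgroup G) := by
        rw [← hg]
        rfl
      rw [h2]
      exact Subgroup.smul_mem_pointwise_smul _ _ _ h1
    -- Lemma A: nontrivial cores
    have hA : ∀ t : ℕ, t.Prime → pCore t G ≠ ⊥ → Group.IsNilpotent G := by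
      intro t ht hTne
      haveI : Fact t.Prime := ⟨ht⟩
      have hTp : IsPGroup t (pCore t G) := pCore_isPGroup t
      have hTinv : ∀ x ∈ pCore t G, φ x ∈ pCore t G := by
        intro x hx
        have h := Subgroup.characteristic_iff_map_le.mp (pCore_char t G) φ
        exact h ⟨x, hx, rfl⟩
      set M := ZZ 0 (pCore t G) with hM
      have hMne : M ≠ ⊥ := ZZ_ne_bot hTp hTne
      have hMn : M.Normal :=
        ⟨fun x hx g => conj_mem_ZZ (fun y hy => (pCore_normal t G).conj_mem y hy g) hx⟩
      have hMinv : ∀ x ∈ M, φ x ∈ M := by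
        intro x hx
        have h1 : (pCore t G).map (φ : G →* G) ≤ pCore t G := by
          rintro _ ⟨y, hy, rfl⟩
          exact hTinv y hy
        have h2 : (pCore t G).map φ.toMonoidHom = pCore t G :=
          Subgroup.eq_of_le_of_card_ge h1
            (le_of_eq (Nat.card_congr ((pCore t G).equivMapOfInjective φ.toMonoidHom φ.injective).toEquiv))
        have h3 := ZZ_map 0 (pCore t G) φ
        rw [h2] at h3
        rw [hM, ← h3]
        exact ⟨x, hx, rfl⟩
      have hMcomm : ∀ x ∈ M, ∀ y ∈ M, x * y = y * x := by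
        intro x hx y hy
        exact Subgroup.mem_centralizer_iff.mp hy.2.1 x hx.1
      have hMp : IsPGroup t M := hTp.to_le (ZZ_le_self 0 _)
      have hQ : Group.IsNilpotent (G ⧸ M) := IHquot M hMinv hMne
      refine ((Group.isNilpotent_of_finite_tfae (G := G)).out 3 0).mp ?_
      intro s hs S
      haveI := hMn
      by_cases hst : s = t
      · subst hst
        have hle : M ≤ (S : Subgroup G) := hMp.le_sylow_of_normal S
        refine sylow_normal_of_nilpotent M S ?_ hQ
        rw [sup_of_le_left hle]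
        exact S.isPGroup'.isNilpotent
      · obtain ⟨g, hg⟩ := htw s S
        have hMtw : ∀ x ∈ M, (tw φ g) x ∈ M := by
          intro x hx
          exact hMn.conj_mem _ (hMinv x hx) g
        have hcop : (Nat.card (S : Subgroup G)).Coprime (Nat.card M) := by
          obtain ⟨a, ha⟩ := IsPGroup.iff_card.mp S.isPGroup'
          obtain ⟨b, hb⟩ := IsPGroup.iff_card.mp hMp
          rw [ha, hb]
          exact Nat.Coprime.pow _ _ ((Nat.coprime_primes hs.out ht).mpr hst)
        have hcent := centralizes hp (tw_spl hφ g) (S : Subgroup G) M hg hMtw hMcomm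
          (by rw [Subgroup.normalizer_eq_top_iff.mpr hMn]; exact le_top) hcop
        refine sylow_normal_of_nilpotent M S ?_ hQ
        exact nilpotent_sup _ _ S.isPGroup'.isNilpotent hMp.isNilpotent hcent
    have hnoCore : ∀ t : ℕ, t.Prime → pCore t G = ⊥ := by
      intro t ht
      by_contra hne
      exact hnil (hA t ht hne)
    have hnt : Nontrivial G := by
      by_contra h
      rw [not_nontrivial_iff_subsingleton] at h
      exact hnil inferInstance
    have hnsol : ¬ Group.IsSolvable G := by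
      intro hsol
      obtain ⟨r, R, hr, hRn, hR1, hRp⟩ := Cfsg.Agent.Lib.Coprime.PrimeGraph2F.exists_normal_pGroup hsol
      haveI : Fact r.Prime := ⟨hr⟩
      have h1 : R ≤ pCore r G := le_pCore hRn hRp
      rw [hnoCore r hr] at h1
      exact hR1 (le_bot_iff.mp h1)
    have hp5 : ∃ p, p.Prime ∧ 5 ≤ p ∧ p ∣ Nat.card G := by
      by_contra hcon
      push Not at hcon
      apply hnsol
      obtain ⟨a, m₁, hm₁, he₁⟩ := Nat.exists_eq_pow_mul_and_not_dvd (n := Nat.card G) Nat.card_pos.ne' 2 (by norm_num)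
      have hm₁0 : m₁ ≠ 0 := by
        rintro rfl
        exact hm₁ (dvd_zero 2)
      obtain ⟨b, m₂, hm₂, he₂⟩ := Nat.exists_eq_pow_mul_and_not_dvd (n := m₁) hm₁0 3 (by norm_num)
      have hm₂1 : m₂ = 1 := by
        by_contra hne
        have hmp := Nat.minFac_prime hne
        have hmd := Nat.minFac_dvd m₂
        have hm2 : m₂.minFac ≠ 2 := by
          intro h
          rw [h] at hmd
          exact hm₁ (he₂ ▸ Dvd.dvd.mul_left hmd _)
        have hm3 : m₂.minFac ≠ 3 := by
          intro h
          rw [h] at hmd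
          exact hm₂ hmd
        have hm5 : 5 ≤ m₂.minFac := by
          have h4 : m₂.minFac ≠ 4 := by
            intro h
            rw [h] at hmp
            norm_num at hmp
          have h2 := hmp.two_le
          omega
        apply hcon _ hmp hm5
        rw [he₁, he₂]
        exact Dvd.dvd.mul_left (Dvd.dvd.mul_left hmd _) _
      rw [hm₂1, mul_one] at he₂
      rw [he₂] at he₁
      exact Cfsg.Agent.Lib.Char.Burnside2.isSolvable_of_card_eq Nat.prime_two Nat.prime_three _ G a b rfl he₁
    obtain ⟨q, hqp, hq5, hqd⟩ := hp5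
    haveI : Fact q.Prime := ⟨hqp⟩
    let P : Sylow q G := default
    obtain ⟨g, hg⟩ := htw q P
    set ψ : MulAut G := tw φ g with hψ
    have hψspl : Spl p ψ := tw_spl hφ g
    have hPne : (P : Subgroup G) ≠ ⊥ := by
      intro h
      have h1 := P.not_dvd_index
      rw [h, Subgroup.index_bot] at h1
      exact h1 hqd
    set W := ZZ 0 (P : Subgroup G) with hW
    have hWne : W ≠ ⊥ := ZZ_ne_bot P.isPGroup' hPne
    have hPmap : (P : Subgroup G).map ψ.toMonoidHom = (P : Subgroup G) :=
      Subgroup.eq_of_le_of_card_ge (by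
          rintro _ ⟨y, hy, rfl⟩
          exact hg y hy)
        (le_of_eq (Nat.card_congr ((P : Subgroup G).equivMapOfInjective ψ.toMonoidHom ψ.injective).toEquiv))
    have hWmap : W.map ψ.toMonoidHom = W := by
      have h3 := ZZ_map 0 (P : Subgroup G) ψ
      rw [hPmap] at h3
      exact h3
    have hNinv : ∀ x ∈ normalizer (W : Set G), ψ x ∈ normalizer (W : Set G) := by
      intro x hx
      have h1 := Subgroup.le_normalizer_map ψ.toMonoidHom (H := W) ⟨x, hx, rfl⟩
      rwa [hWmap] at h1
    by_cases hNtop : normalizer (W : Set G) = ⊤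
    · have hWn : W.Normal := Subgroup.normalizer_eq_top_iff.mp hNtop
      have hWp : IsPGroup q W := P.isPGroup'.to_le (ZZ_le_self 0 _)
      have h1 : W ≤ pCore q G := le_pCore hWn hWp
      rw [hnoCore q hqp] at h1
      exact hWne (le_bot_iff.mp h1)
    · haveI hNnil : Group.IsNilpotent (normalizer (W : Set G)) := IHsub ψ hψspl _ hNinv hNtop
      have hNc : HasNormalPComplement q (normalizer (W : Set G)) :=
        hasNormalPComplement_iff.mpr ⟨pPrimeCore q _, inferInstance,
          Cfsg.Agent.Lib.Solvable.PSeries.pPrimeCore_coprime q,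
          Cfsg.Agent.Lib.Solvable.Carter.isPGroup_quotient_pPrimeCore q⟩
      have hGc : HasNormalPComplement q G := Cfsg.Agent.Lib.Thompson.GT.gt_main hq5 _ G rfl P hNc
      obtain ⟨N₀, hN₀n, hN₀c, hN₀p⟩ := hasNormalPComplement_iff.mp hGc
      have hKc : (Nat.card (pPrimeCore q G)).Coprime q := Cfsg.Agent.Lib.Solvable.PSeries.pPrimeCore_coprime q
      have hKinv : ∀ x ∈ pPrimeCore q G, ψ x ∈ pPrimeCore q G := by
        intro x hx
        have h := Subgroup.characteristic_iff_map_le.mp (Cfsg.Agent.Lib.Solvable.PSeries.pPrimeCore_char q G) ψ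
        exact h ⟨x, hx, rfl⟩
      by_cases hKbot : pPrimeCore q G = ⊥
      · have hN₀bot : N₀ = ⊥ := by
          have := le_pPrimeCore hN₀n hN₀c
          rw [hKbot] at this
          exact le_bot_iff.mp this
        apply hnil
        refine IsPGroup.isNilpotent (p := q) ?_
        intro x
        obtain ⟨k, hk⟩ := hN₀p (x : G ⧸ N₀)
        refine ⟨k, ?_⟩
        rw [← QuotientGroup.mk_pow, QuotientGroup.eq_one_iff, hN₀bot, Subgroup.mem_bot] at hk
        exact hk
      · have hKtop : pPrimeCore q G ≠ ⊤ := by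
          intro htop
          rw [htop, Subgroup.card_top] at hKc
          have h1 := Nat.Coprime.eq_one_of_dvd hKc.symm hqd
          exact hqp.one_lt.ne' h1
        haveI hKnil : Group.IsNilpotent (pPrimeCore q G) := IHsub ψ hψspl _ hKinv hKtop
        haveI hKnt : Nontrivial (pPrimeCore q G) := (Subgroup.nontrivial_iff_ne_bot _).mpr hKbot
        obtain ⟨t, ht, htd⟩ := Nat.exists_prime_and_dvd (Finite.one_lt_card (α := pPrimeCore q G)).ne'
        haveI : Fact t.Prime := ⟨ht⟩
        obtain ⟨x, hx⟩ := exists_prime_orderOf_dvd_card' t htd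
        have hxp : IsPGroup t (zpowers x) := by
          rw [IsPGroup.iff_card, Nat.card_zpowers, hx]
          exact ⟨1, (pow_one t).symm⟩
        obtain ⟨S₁, hS₁⟩ := hxp.exists_le_sylow
        have h1 : (S₁ : Subgroup (pPrimeCore q G)) ≤ pCore t (pPrimeCore q G) :=
          le_pCore inferInstance S₁.isPGroup'
        have h2 : (x : G) ∈ pCore t G :=
          map_pCore_of_normal_le (p := t) (N := pPrimeCore q G) ⟨x, h1 (hS₁ (mem_zpowers x)), rfl⟩
        rw [hnoCore t ht, Subgroup.mem_bot] at h2
        have h3 : x = 1 := Subtype.ext h2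
        rw [h3, orderOf_one] at hx
        exact ht.one_lt.ne hx

end Cfsg.Agent.Lib.Coprime.Kegel
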