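/-
Representations with a spanning orbit: fixed vectors of a subgroup that is transitive on the orbit.
-/
import Cfsg.Agent.S0007
import Cfsg.Agent.Lib.Coprime.PSolvable
import Mathlib

set_option autoImplicit false

namespace Cfsg.Agent.Lib.Coprime.OrbitSpan

variable {k V H : Type*} [Field k] [AddCommGroup V] [Module k V] [Group H]

section Avg

variable {L : Type*} [Group L] [Fintype L] (σ : Representation k L V)

/-- The average over a finite group. -/
noncomputable def avg : V →ₗ[k] V := (Fintype.card L : k)⁻¹ • ∑ l : L, σ l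

theorem avg_apply (v : V) : avg σ v = (Fintype.card L : k)⁻¹ • ∑ l : L, σ l v := by
  simp [avg, LinearMap.sum_apply]

theorem avg_act (l₀ : L) (v : V) : avg σ (σ l₀ v) = avg σ v := by
  rw [avg_apply, avg_apply]
  congr 1
  refine Fintype.sum_equiv (Equiv.mulRight l₀) _ _ (fun l => ?_)
  simp [map_mul]

theorem avg_fixed (hL : (Fintype.card L : k) ≠ 0) (v : V) (hv : ∀ l, σ l v = v) : avg σ v = v := by
  rw [avg_apply]
  simp only [hv, Finset.sum_const, Finset.card_univ]
  rw [← Nat.cast_smul_eq_nsmul k, smul_smul, inv_mul_cancel₀ hL, one_smul]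

end Avg

/-- The pointwise stabiliser of a vector, as a subgroup. -/
def stab (ρ : Representation k H V) (v : V) : Subgroup H where
  carrier := {h | ρ h v = v}
  one_mem' := by simp
  mul_mem' := by
    intro x y hx hy
    have hx' : ρ x v = v := hx
    have hy' : ρ y v = v := hy
    show ρ (x * y) v = v
    rw [map_mul, Module.End.mul_apply, hy', hx']
  inv_mem' := by
    intro x hx
    have hx' : ρ x v = v := hx
    show ρ x⁻¹ v = v
    have : ρ x⁻¹ (ρ x v) = v := by
      rw [← Module.End.mul_apply, ← map_mul, inv_mul_cancel, map_one, Module.End.one_apply]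
    rwa [hx'] at this

theorem mem_stab (ρ : Representation k H V) (v : V) (h : H) : h ∈ stab ρ v ↔ ρ h v = v := Iff.rfl

/-- Orbit-stabiliser theorem for the orbit set appearing in the statements. -/
theorem card_orbit_eq_index (ρ : Representation k H V) (v : V) :
    Nat.card {u : V | ∃ h : H, ρ h v = u} = (stab ρ v).index := by
  let act : MulAction H V :=
    { smul := fun h v => ρ h v
      one_smul := fun v => by
        show ρ 1 v = v
        simp
      mul_smul := fun x y v => by
        show ρ (x * y) v = ρ x (ρ y v)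
        simp [map_mul] }
  have h1 : MulAction.stabilizer H v = stab ρ v := rfl
  have h2 : MulAction.orbit H v = {u : V | ∃ h : H, ρ h v = u} := rfl
  rw [← h1, ← h2]
  exact Nat.card_congr (MulAction.orbitEquivQuotientStabilizer H v)

/-- If `L ≤ H` has order invertible in `k` and is transitive on the `H`-orbit of `a`, the orbit
spans and has size invertible in `k`, then every `L`-fixed vector is a multiple of one `H`-fixed
vector. -/
theorem exists_fixed_span [Finite H] (ρ : Representation k H V) (a : V)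
    (hspan : Submodule.span k {u : V | ∃ h : H, ρ h a = u} = ⊤)
    (L : Subgroup H) (hL : (Nat.card L : k) ≠ 0)
    (htrans : ∀ h : H, ∃ l ∈ L, ρ h a = ρ l a)
    (hO : (Nat.card {u : V | ∃ h : H, ρ h a = u} : k) ≠ 0) :
    ∃ c : V, (∀ h, ρ h c = c) ∧ ∀ b, (∀ l ∈ L, ρ l b = b) → ∃ t : k, b = t • c := by
  classical
  let _ : Fintype L := Fintype.ofFinite L
  let σ : Representation k L V := ρ.comp L.subtype
  have hσ : ∀ (l : L) (v : V), σ l v = ρ l v := fun _ _ => rfl
  have hL' : (Fintype.card L : k) ≠ 0 := by rwa [← Nat.card_eq_fintype_card]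
  let O : Set V := {u : V | ∃ h : H, ρ h a = u}
  have hfin : O.Finite := Set.toFinite _
  let Of : Finset V := hfin.toFinset
  have hOf : ∀ u, u ∈ Of ↔ ∃ h : H, ρ h a = u := fun u => by simp [Of, O]
  let c : V := ∑ u ∈ Of, u
  have hc : ∀ h, ρ h c = c := by
    intro h
    simp only [c, map_sum]
    refine Finset.sum_nbij' (fun u => ρ h u) (fun u => ρ h⁻¹ u) ?_ ?_ ?_ ?_ ?_
    · intro u hu
      obtain ⟨g, rfl⟩ := (hOf u).mp hu
      exact (hOf _).mpr ⟨h * g, by simp [map_mul]⟩
    · intro u hu
      obtain ⟨g, rfl⟩ := (hOf u).mp hu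
      exact (hOf _).mpr ⟨h⁻¹ * g, by simp [map_mul]⟩
    · intro u _
      simp [← Module.End.mul_apply, ← map_mul]
    · intro u _
      simp [← Module.End.mul_apply, ← map_mul]
    · intro u _
      rfl
  have hEu : ∀ u ∈ Of, avg σ u = avg σ a := by
    intro u hu
    obtain ⟨h, rfl⟩ := (hOf u).mp hu
    obtain ⟨l, hl, hla⟩ := htrans h
    rw [hla, ← hσ ⟨l, hl⟩, avg_act]
  have hEc : avg σ c = (Of.card : k) • avg σ a := by
    simp only [c, map_sum]
    rw [Finset.sum_congr rfl hEu, Finset.sum_const, Nat.cast_smul_eq_nsmul]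
  have hcard : (Of.card : k) ≠ 0 := by
    have : Of.card = Nat.card O := by
      rw [Nat.card_coe_set_eq, Set.ncard_eq_toFinset_card O hfin]
    rw [this]
    exact hO
  have hEc' : avg σ c = c := avg_fixed σ hL' c (fun l => hc l)
  refine ⟨c, hc, fun b hb => ?_⟩
  have hEb : avg σ b = b := avg_fixed σ hL' b (fun l => hb l l.2)
  have hmem : b ∈ (Submodule.span k {avg σ a}) := by
    have hb1 : b ∈ Submodule.span k O := by
      rw [show Submodule.span k O = ⊤ from hspan]
      exact Submodule.mem_top
    have hmap : Submodule.map (avg σ) (Submodule.span k O) ≤ Submodule.span k {avg σ a} := by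
      rw [Submodule.map_span_le]
      intro u hu
      have := hEu u ((hOf u).mpr hu)
      rw [this]
      exact Submodule.mem_span_singleton_self _
    have := hmap (Submodule.mem_map_of_mem hb1)
    rwa [hEb] at this
  obtain ⟨t, ht⟩ := Submodule.mem_span_singleton.mp hmem
  refine ⟨t * (Of.card : k)⁻¹, ?_⟩
  rw [← ht, ← hEc', hEc, smul_smul, mul_assoc, inv_mul_cancel₀ hcard, mul_one]

/-- Finrank bound from a single spanning vector. -/
theorem finrank_invariants_le_one (ρ : Representation k H V) (c : V)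
    (h : ∀ b, (∀ g, ρ g b = b) → ∃ t : k, b = t • c) :
    Module.finrank k ρ.invariants ≤ 1 := by
  have hle : ρ.invariants ≤ Submodule.span k {c} := by
    intro b hb
    obtain ⟨t, rfl⟩ := h b hb
    exact Submodule.smul_mem _ _ (Submodule.mem_span_singleton_self _)
  have h1 : Module.finrank k (Submodule.span k {c} : Submodule k V) ≤ 1 := by
    by_cases hc : c = 0
    · subst hc
      rw [Submodule.span_zero_singleton, finrank_bot]
      exact Nat.zero_le _
    · rw [finrank_span_singleton hc]
  exact (Submodule.finrank_mono hle).trans h1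

/-- Good case (coprime characteristic). -/
theorem spanning_orbit_of_coprime [Finite H] (hchar : ¬ ringChar k ∣ Nat.card H)
    (ρ : Representation k H V) (a : V)
    (hspan : Submodule.span k {u : V | ∃ h : H, ρ h a = u} = ⊤) :
    Module.finrank k ρ.invariants ≤ 1 ∧
    ∀ b : V, (Nat.card {u : V | ∃ h : H, ρ h a = u}).Coprime (Nat.card {u : V | ∃ h : H, ρ h b = u}) →
      ∀ h : H, ρ h b = b := by
  have hnz : ∀ d : ℕ, d ∣ Nat.card H → (d : k) ≠ 0 := by
    intro d hd h0
    exact hchar (((CharP.cast_eq_zero_iff k (ringChar k) d).mp h0).trans hd)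
  have hO : (Nat.card {u : V | ∃ h : H, ρ h a = u} : k) ≠ 0 := by
    apply hnz
    rw [card_orbit_eq_index]
    exact Subgroup.index_dvd_card _
  constructor
  · obtain ⟨c, -, hc⟩ := exists_fixed_span ρ a hspan ⊤ (hnz _ (by simp)) (fun h => ⟨h, trivial, rfl⟩) hO
    exact finrank_invariants_le_one ρ c (fun b hb => hc b (fun l _ => hb l))
  · intro b hcop h
    rw [card_orbit_eq_index, card_orbit_eq_index] at hcop
    have hfac := (Cfsg.Agent.S0007.result (stab ρ b) (stab ρ a) hcop.symm).2
    obtain ⟨c, hc1, hc2⟩ := exists_fixed_span ρ a hspan (stab ρ b)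
      (hnz _ (Subgroup.card_subgroup_dvd_card _))
      (fun g => by
        obtain ⟨x, hx, y, hy, rfl⟩ := hfac g
        refine ⟨x, hx, ?_⟩
        rw [map_mul, Module.End.mul_apply, (mem_stab ρ a y).mp hy]) hO
    obtain ⟨t, rfl⟩ := hc2 b (fun l hl => hl)
    rw [map_smul, hc1]

/-- `p`-soluble case: a vector fixed by a Sylow `p`-subgroup in characteristic `p`. -/
theorem spanning_orbit_of_pSolvable [Finite H] (p : ℕ) [hp : Fact p.Prime] [CharP k p]
    (hsol : Cfsg.IsPSolvable p H) (ρ : Representation k H V) (a : V)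
    (hfix : ∃ P : Sylow p H, ∀ x : H, x ∈ (P : Subgroup H) → ρ x a = a)
    (hspan : Submodule.span k {u : V | ∃ h : H, ρ h a = u} = ⊤) :
    Module.finrank k ρ.invariants ≤ 1 ∧
    ∀ b : V, (Nat.card {u : V | ∃ h : H, ρ h a = u}).Coprime (Nat.card {u : V | ∃ h : H, ρ h b = u}) →
      ∀ h : H, ρ h b = b := by
  have hnz : ∀ d : ℕ, ¬ p ∣ d → (d : k) ≠ 0 := by
    intro d hd h0
    exact hd ((CharP.cast_eq_zero_iff k p d).mp h0)
  obtain ⟨P, hP⟩ := hfix
  have hPA : (P : Subgroup H) ≤ stab ρ a := hP
  have hAp : ¬ p ∣ (stab ρ a).index := fun hd =>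
    P.not_dvd_index (hd.trans (Subgroup.index_dvd_of_le hPA))
  have hO : (Nat.card {u : V | ∃ h : H, ρ h a = u} : k) ≠ 0 := by
    apply hnz
    rw [card_orbit_eq_index]
    exact hAp
  have hp' : p.Prime := hp.out
  constructor
  · obtain ⟨S, hS1, m, hm⟩ := Cfsg.Agent.Lib.Coprime.PSolvable.exists_hall hp' hsol
    have hcop : S.index.Coprime (stab ρ a).index := by
      rw [hm]
      exact Nat.Coprime.pow_left _ ((Nat.Prime.coprime_iff_not_dvd hp').mpr hAp)
    have hfac := (Cfsg.Agent.S0007.result S (stab ρ a) hcop).2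
    obtain ⟨c, -, hc⟩ := exists_fixed_span ρ a hspan S (hnz _ hS1)
      (fun g => by
        obtain ⟨x, hx, y, hy, rfl⟩ := hfac g
        refine ⟨x, hx, ?_⟩
        rw [map_mul, Module.End.mul_apply, (mem_stab ρ a y).mp hy]) hO
    exact finrank_invariants_le_one ρ c (fun b hb => hc b (fun l _ => hb l))
  · intro b hcop h
    rw [card_orbit_eq_index, card_orbit_eq_index] at hcop
    set A := stab ρ a with hA
    set B := stab ρ b with hB
    have hres := Cfsg.Agent.S0007.result B A hcop.symm
    have hfac := hres.2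
    obtain ⟨S₁, hS1, m, hm⟩ := Cfsg.Agent.Lib.Coprime.PSolvable.exists_hall hp'
      (Cfsg.Agent.Lib.Coprime.PSolvable.isPSolvable_subgroup hp' B hsol)
    -- `A` has index prime to `p` in `B`
    have hrel : A.relIndex B = A.index := by
      have h1 : (B ⊓ A).relIndex A * A.index = (B ⊓ A).index :=
        Subgroup.relIndex_mul_index inf_le_right
      have h2 : (A ⊓ B).relIndex B * B.index = (A ⊓ B).index :=
        Subgroup.relIndex_mul_index inf_le_right
      have h3 : (A ⊓ B).index = B.index * A.index := by rw [inf_comm]; exact hres.1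
      have hBpos : 0 < B.index := Nat.pos_of_ne_zero Subgroup.index_ne_zero_of_finite
      rw [← Subgroup.inf_relIndex_right]
      rw [h3, mul_comm] at h2
      exact Nat.eq_of_mul_eq_mul_left hBpos h2
    have hcop' : S₁.index.Coprime (A.subgroupOf B).index := by
      have : (A.subgroupOf B).index = A.relIndex B := rfl
      rw [hm, this, hrel]
      exact Nat.Coprime.pow_left _ ((Nat.Prime.coprime_iff_not_dvd hp').mpr hAp)
    have hfac' := (Cfsg.Agent.S0007.result S₁ (A.subgroupOf B) hcop').2
    have hScard : Nat.card (S₁.map B.subtype) = Nat.card S₁ :=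
      Nat.card_congr (S₁.equivMapOfInjective B.subtype B.subtype_injective).symm.toEquiv
    obtain ⟨c, hc1, hc2⟩ := exists_fixed_span ρ a hspan (S₁.map B.subtype)
      (hnz _ (by rwa [hScard]))
      (fun g => by
        obtain ⟨x, hx, y, hy, rfl⟩ := hfac g
        obtain ⟨x₁, hx₁, y₁, hy₁, hxeq⟩ := hfac' ⟨x, hx⟩
        refine ⟨x₁, Subgroup.mem_map_of_mem _ hx₁, ?_⟩
        have hxeq' : x = (x₁ : H) * (y₁ : H) := congrArg Subtype.val hxeq
        have hy₁' : ρ (y₁ : H) a = a := hy₁
        rw [map_mul, Module.End.mul_apply, (mem_stab ρ a y).mp hy, hxeq', map_mul,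
          Module.End.mul_apply, hy₁']) hO
    obtain ⟨t, ht⟩ := hc2 b (by
      rintro _ ⟨x, _, rfl⟩
      exact x.2)
    rw [ht, map_smul, hc1]

end Cfsg.Agent.Lib.Coprime.OrbitSpan
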