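import Mathlib
import Cfsg.Agent.Lib.Coprime.Coset
import Cfsg.Agent.Lib.Char.Burnside2
import Cfsg.Agent.Lib.Transfer.Frobenius

/-!
# Normal subgroups all of whose outside elements have prime power order

If every element outside the normal subgroup `N` has prime power order and `G/N` is not
nilpotent, then `|N|` has at most two prime divisors.  The heart is the elementary counting
identity `frob_count` for a Frobenius group acting on an abelian group.
-/

set_option autoImplicit false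
set_option linter.style.longLine false
set_option linter.unusedSectionVars false
set_option linter.style.haveILetI false

namespace Cfsg.Agent.Lib.Coprime.OutsidePP

open Subgroup

universe u

/-- Frobenius counting identity: a Frobenius group `P ⋊ ⟨t⟩` acting on an abelian group `V`
with `C_V(t) = 1 = C_V(P)` forces `|P|` to kill `V`. -/
theorem frob_count {B V : Type*} [Group B] [Group V] (hcomm : ∀ a b : V, a * b = b * a)
    (ρ : B →* MulAut V) (P : Subgroup B) [Finite P] (t : B) (q : ℕ) (hq : q.Prime) (htq : t ^ q = 1)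
    (htP : t ∈ normalizer (P : Set B))
    (hfp : ∀ i, 0 < i → i < q → ∀ v ∈ P, t ^ i * v = v * t ^ i → v = 1)
    (hCt : ∀ w : V, ρ t w = w → w = 1)
    (hCP : ∀ w : V, (∀ u ∈ P, ρ u w = w) → w = 1) (v : V) : v ^ Nat.card P = 1 := by
  classical
  letI : CommGroup V := { ‹Group V› with mul_comm := hcomm }
  haveI : Fintype P := Fintype.ofFinite P
  have hne : q ≠ 0 := hq.ne_zero
  -- the sum over `⟨t⟩` vanishes
  have hW : ∀ w : V, ∏ i ∈ Finset.range q, ρ (t ^ i) w = 1 := by
    intro w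
    apply hCt
    rw [map_prod]
    obtain ⟨k, hk⟩ : ∃ k, q = k + 1 := ⟨q - 1, by omega⟩
    have hf : ∀ i, ρ t (ρ (t ^ i) w) = ρ (t ^ (i + 1)) w := by
      intro i
      rw [pow_succ', map_mul, MulAut.mul_apply]
    simp only [hf]
    rw [hk, Finset.prod_range_succ (fun i => ρ (t ^ (i + 1)) w) k,
      Finset.prod_range_succ' (fun i => ρ (t ^ i) w) k]
    have e1 : ρ (t ^ (k + 1)) w = ρ (t ^ 0) w := by
      rw [← hk, htq, pow_zero]
    rw [e1]
  -- the sum over `P` vanishes
  have hY : ∀ w : V, ∏ y : P, ρ (y : B) w = 1 := by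
    intro w
    apply hCP
    intro u hu
    rw [map_prod]
    simp only [← MulAut.mul_apply, ← map_mul]
    exact Fintype.prod_equiv (Equiv.mulLeft (⟨u, hu⟩ : P)) _ _ (fun y => by simp)
  -- two ways to evaluate the double product
  have h1 : ∏ u : P, ∏ i ∈ Finset.range q, ρ ((u : B)⁻¹ * t ^ i * u) v = 1 := by
    apply Finset.prod_eq_one
    intro u _
    have : ∀ i, ρ ((u : B)⁻¹ * t ^ i * u) v = ρ ((u : B)⁻¹) (ρ (t ^ i) (ρ u v)) := by
      intro i; simp only [map_mul, MulAut.mul_apply]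
    simp only [this]
    rw [← map_prod, hW, map_one]
  rw [Finset.prod_comm] at h1
  rw [Finset.prod_eq_single 0] at h1
  · simpa [Nat.card_eq_fintype_card] using h1
  · intro i hi hi0
    have hiq : i < q := Finset.mem_range.mp hi
    have hipos : 0 < i := Nat.pos_of_ne_zero hi0
    -- `u ↦ t^{-i} u⁻¹ t^i u` is a bijection of `P`
    have htiP : t ^ i ∈ normalizer (P : Set B) := pow_mem htP i
    have hmem : ∀ u : P, (t ^ i)⁻¹ * ((u : B)⁻¹ * t ^ i * u) ∈ P := by
      intro u
      have h2 : (t ^ i)⁻¹ * (u : B)⁻¹ * (t ^ i)⁻¹⁻¹ ∈ P :=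
        (mem_normalizer_iff.mp (inv_mem htiP) _).mp (inv_mem u.2)
      have e : (t ^ i)⁻¹ * ((u : B)⁻¹ * t ^ i * u) = ((t ^ i)⁻¹ * (u : B)⁻¹ * (t ^ i)⁻¹⁻¹) * u := by
        group
      rw [e]
      exact mul_mem h2 u.2
    let φ : P → P := fun u => ⟨_, hmem u⟩
    have hφ : Function.Injective φ := by
      intro a b hab
      have h3 : (t ^ i)⁻¹ * ((a : B)⁻¹ * t ^ i * a) = (t ^ i)⁻¹ * ((b : B)⁻¹ * t ^ i * b) :=
        congrArg Subtype.val hab
      have h4 := mul_left_cancel h3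
      have h5 : t ^ i * ((a : B) * (b : B)⁻¹) = ((a : B) * (b : B)⁻¹) * t ^ i := by
        have : t ^ i = (a : B) * ((a : B)⁻¹ * t ^ i * a) * (a : B)⁻¹ := by group
        calc t ^ i * ((a : B) * (b : B)⁻¹)
            = (a : B) * ((a : B)⁻¹ * t ^ i * a) * (b : B)⁻¹ := by group
          _ = (a : B) * ((b : B)⁻¹ * t ^ i * b) * (b : B)⁻¹ := by rw [h4]
          _ = ((a : B) * (b : B)⁻¹) * t ^ i := by group
      have h6 := hfp i hipos hiq _ (mul_mem a.2 (inv_mem b.2)) h5
      apply Subtype.ext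
      exact mul_inv_eq_one.mp h6
    have hφb : Function.Bijective φ := Finite.injective_iff_bijective.mp hφ
    let e : P ≃ P := Equiv.ofBijective φ hφb
    have : ∏ u : P, ρ ((u : B)⁻¹ * t ^ i * u) v = ρ (t ^ i) (∏ y : P, ρ (y : B) v) := by
      rw [map_prod]
      apply Fintype.prod_equiv e
      intro u
      have e2 : (u : B)⁻¹ * t ^ i * u = t ^ i * (φ u : B) := by
        show _ = t ^ i * ((t ^ i)⁻¹ * ((u : B)⁻¹ * t ^ i * u))
        group
      rw [e2, map_mul, MulAut.mul_apply]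
      rfl
    rw [this, hY, map_one]
  · intro h0
    exact absurd (Finset.mem_range.mpr hq.pos) h0

variable {G : Type u} [Group G] [Finite G]

/-- Two commuting elements of coprime orders with product outside `N`: one of them is trivial. -/
theorem eq_one_or_of_comm (N : Subgroup G) (h : ∀ x : G, x ∉ N → IsPrimePow (orderOf x)) {a b : G}
    (hc : Commute a b) (hab : a * b ∉ N) (hcop : (orderOf a).Coprime (orderOf b)) :
    a = 1 ∨ b = 1 := by
  obtain ⟨ℓ, k, hℓ, hk, e⟩ := h _ hab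
  rw [hc.orderOf_mul_eq_mul_orderOf_of_coprime hcop] at e
  have hℓ' := hℓ.nat_prime
  by_contra hne
  push Not at hne
  have ha : orderOf a ∣ ℓ ^ k := ⟨orderOf b, e⟩
  have hb : orderOf b ∣ ℓ ^ k := ⟨orderOf a, by rw [e, mul_comm]⟩
  obtain ⟨i, -, hi⟩ := (Nat.dvd_prime_pow hℓ').1 ha
  obtain ⟨j, -, hj⟩ := (Nat.dvd_prime_pow hℓ').1 hb
  have hi0 : i ≠ 0 := by
    rintro rfl
    apply hne.1
    simpa using hi
  have hj0 : j ≠ 0 := by
    rintro rfl
    apply hne.2
    simpa using hj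
  have : ℓ ∣ Nat.gcd (orderOf a) (orderOf b) :=
    Nat.dvd_gcd (hi ▸ dvd_pow_self ℓ hi0) (hj ▸ dvd_pow_self ℓ hj0)
  rw [hcop] at this
  exact hℓ'.one_lt.ne' (Nat.dvd_one.mp this)

/-- Membership descends along coprime powers. -/
theorem mem_of_pow_mem_of_coprime (M : Subgroup G) {a : G} {m : ℕ} (h : a ^ m ∈ M)
    (hc : (orderOf a).Coprime m) : a ∈ M := by
  by_cases h1 : orderOf a = 1
  · rw [orderOf_eq_one_iff.mp h1]; exact one_mem _
  have hpos : 1 < orderOf a := by
    have := orderOf_pos a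
    omega
  obtain ⟨k, -, hk⟩ := Nat.exists_mul_mod_eq_one_of_coprime hc.symm hpos
  have e : (a ^ m) ^ k = a := by
    rw [← pow_mul, ← pow_mod_orderOf, hk, pow_one]
  rw [← e]
  exact pow_mem h k

/-- A prime power order element outside `M` with `a ^ m ∈ M`: the prime divides `m`. -/
theorem dvd_of_pow_mem (M : Subgroup G) {a : G} (ha : a ∉ M) {ℓ c m : ℕ} (hℓ : ℓ.Prime)
    (ho : orderOf a = ℓ ^ c) (hm : a ^ m ∈ M) : ℓ ∣ m := by
  by_contra hnd
  apply ha
  apply mem_of_pow_mem_of_coprime M hm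
  rw [ho]
  exact Nat.Coprime.pow_left c ((Nat.Prime.coprime_iff_not_dvd hℓ).2 hnd)

/-- Frattini-type step. -/
theorem exists_mul_mem_normalizer {p : ℕ} [Fact p.Prime] (D : Subgroup G) (P' : Sylow p D) {b : G}
    (hb : b ∈ normalizer (D : Set G)) :
    ∃ c ∈ D, c * b ∈ normalizer (((P' : Subgroup D).map D.subtype : Subgroup G) : Set G) := by
  classical
  let φ : MulAut D := D.normalizerMonoidHom ⟨b, hb⟩
  obtain ⟨c, hc⟩ := MulAction.exists_smul_eq D (φ • P') P'
  refine ⟨c, c.2, Cfsg.Agent.Lib.Transfer.Frobenius.mem_normalizer_of_conj_mem ?_⟩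
  rintro _ ⟨x, hx, rfl⟩
  have h1 : φ x ∈ ((φ • P' : Sylow p D) : Subgroup D) := by
    rw [Sylow.pointwise_smul_def]
    exact Subgroup.smul_mem_pointwise_smul _ _ _ hx
  have h2 : c * φ x * c⁻¹ ∈ (P' : Subgroup D) := by
    rw [← hc, Sylow.coe_subgroup_smul]
    have := Subgroup.smul_mem_pointwise_smul (φ x) (MulAut.conj c) _ h1
    simpa [MulAut.smul_def] using this
  refine ⟨_, h2, ?_⟩
  have e : ((φ x : D) : G) = b * (x : G) * b⁻¹ := rfl
  simp only [Subgroup.coe_subtype, Subgroup.coe_mul, Subgroup.coe_inv, e]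
  group

/-- The core of the argument. -/
theorem false_of_prime_dvd (N : Subgroup G) [N.Normal] (h : ∀ x : G, x ∉ N → IsPrimePow (orderOf x))
    {p q r : ℕ} (hp : p.Prime) (hq : q.Prime) (hr : r.Prime) (hpq : p ≠ q) (hrp : r ≠ p) (hrq : r ≠ q)
    (Y : Subgroup G) (hNY : N ≤ Y) (hYp : ∀ y ∈ Y, ∃ k : ℕ, y ^ p ^ k ∈ N)
    (y₀ : G) (hy₀ : y₀ ∈ Y) (hy₀N : y₀ ∉ N)
    (t₀ : G) (ht₀ : t₀ ∈ normalizer (Y : Set G)) (ht₀N : t₀ ∉ N) (ht₀q : t₀ ^ q ∈ N)
    (hrN : r ∣ Nat.card N) : False := by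
  classical
  haveI := Fact.mk hp
  haveI := Fact.mk hq
  haveI := Fact.mk hr
  -- prime power order elements outside `N`
  have hord : ∀ x : G, x ∉ N → ∃ ℓ c : ℕ, ℓ.Prime ∧ 0 < c ∧ orderOf x = ℓ ^ c := by
    intro x hx
    obtain ⟨ℓ, c, hℓ, hc, e⟩ := h x hx
    exact ⟨ℓ, c, hℓ.nat_prime, hc, e.symm⟩
  -- elements of `Y` outside `N` are `p`-elements
  have hYelt : ∀ x ∈ Y, x ∉ N → ∃ c : ℕ, orderOf x = p ^ c := by
    intro x hxY hxN
    obtain ⟨ℓ, c, hℓ, -, e⟩ := hord x hxN
    obtain ⟨k, hk⟩ := hYp x hxY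
    have := dvd_of_pow_mem N hxN hℓ e hk
    have h2 : ℓ = p := (Nat.prime_dvd_prime_iff_eq hℓ hp).1 (hℓ.dvd_of_dvd_pow this)
    exact ⟨c, h2 ▸ e⟩
  have ht₀Y : t₀ ∉ Y := by
    intro ht
    obtain ⟨k, hk⟩ := hYp t₀ ht
    obtain ⟨c, hc⟩ := hYelt t₀ ht ht₀N
    have hdq := dvd_of_pow_mem N ht₀N hp hc ht₀q
    exact hpq ((Nat.prime_dvd_prime_iff_eq hp hq).1 hdq)
  -- the Sylow subgroup of `N`
  let R : Sylow r N := default
  let RG : Subgroup G := (R : Subgroup N).map N.subtype
  have hRGN : RG ≤ N := by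
    rintro _ ⟨x, -, rfl⟩
    exact x.2
  have hRGp : IsPGroup r RG := R.isPGroup'.map _
  have hRne : RG ≠ ⊥ := by
    intro hbot
    have h1 : (R : Subgroup N) = ⊥ := by
      rwa [Subgroup.map_eq_bot_iff_of_injective _ N.subtype_injective] at hbot
    have hdvd := Sylow.dvd_card_of_dvd_card (p := r) R hrN
    rw [h1] at hdvd
    simp at hdvd
    exact hr.one_lt.ne' hdvd
  let A : Subgroup G := normalizer (RG : Set G)
  have hsup : A ⊔ N = ⊤ := Sylow.normalizer_sup_eq_top R
  -- decomposition of elements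
  have hdec : ∀ g : G, ∃ a ∈ A, ∃ n ∈ N, g = n * a := by
    intro g
    have hg : g ∈ N ⊔ A := by
      rw [sup_comm, hsup]; trivial
    obtain ⟨n, hn, a, ha, e⟩ := Subgroup.mem_sup_of_normal_left.mp hg
    exact ⟨a, ha, n, hn, e.symm⟩
  -- the element `a ∈ Y ∩ A` outside `N`
  obtain ⟨a, haA, n₁, hn₁, ea⟩ := hdec y₀
  have haY : a ∈ Y := by
    have : a = n₁⁻¹ * y₀ := by rw [ea]; group
    rw [this]
    exact mul_mem (inv_mem (hNY hn₁)) hy₀
  have haN : a ∉ N := by
    intro hc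
    apply hy₀N
    rw [ea]
    exact mul_mem hn₁ hc
  obtain ⟨c₁, hc₁⟩ := hYelt a haY haN
  let D : Subgroup G := Y ⊓ A
  have haD : a ∈ D := ⟨haY, haA⟩
  -- a Sylow subgroup of `D` containing `a`
  have hap : IsPGroup p (Subgroup.zpowers (⟨a, haD⟩ : D)) := by
    rw [IsPGroup.iff_card, Nat.card_zpowers]
    refine ⟨c₁, ?_⟩
    rw [Subgroup.orderOf_mk, hc₁]
  obtain ⟨P', hP'⟩ := hap.exists_le_sylow
  let P : Subgroup G := (P' : Subgroup D).map D.subtype
  have hPD : P ≤ D := by
    rintro _ ⟨x, -, rfl⟩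
    exact x.2
  have hPp : IsPGroup p P := P'.isPGroup'.map _
  have haP : a ∈ P := ⟨⟨a, haD⟩, hP' (Subgroup.mem_zpowers _), rfl⟩
  -- the element `t`
  obtain ⟨t₁, ht₁A, n₂, hn₂, et⟩ := hdec t₀
  have ht₁N : t₁ ∈ normalizer (Y : Set G) := by
    have : t₁ = n₂⁻¹ * t₀ := by rw [et]; group
    rw [this]
    refine mul_mem ?_ ht₀
    exact inv_mem (le_normalizer (hNY hn₂))
  have ht₁Y : t₁ ∉ Y := by
    intro hc
    apply ht₀Y
    rw [et]
    exact mul_mem (hNY hn₂) hc
  have ht₁q : t₁ ^ q ∈ N := by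
    have e1 : (QuotientGroup.mk' N) t₁ = (QuotientGroup.mk' N) t₀ := by
      rw [et, map_mul, show (QuotientGroup.mk' N) n₂ = 1 from (QuotientGroup.eq_one_iff n₂).mpr hn₂, one_mul]
    rw [← QuotientGroup.eq_one_iff] at ht₀q ⊢
    have e2 := congrArg (· ^ q) e1
    simp only [← map_pow] at e2
    simp only [QuotientGroup.mk'_apply] at e2
    rw [e2]
    exact ht₀q
  have ht₁D : t₁ ∈ normalizer (D : Set G) := by
    apply Cfsg.Agent.Lib.Transfer.Frobenius.mem_normalizer_of_conj_mem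
    intro x hx
    obtain ⟨hxY, hxA⟩ := Subgroup.mem_inf.1 hx
    exact Subgroup.mem_inf.2 ⟨(mem_normalizer_iff.mp ht₁N x).mp hxY, mul_mem (mul_mem ht₁A hxA) (inv_mem ht₁A)⟩
  obtain ⟨c, hcD, htP⟩ := exists_mul_mem_normalizer D P' ht₁D
  let t : G := c * t₁
  have htA : t ∈ A := mul_mem hcD.2 ht₁A
  have htY : t ∉ Y := by
    intro hc'
    apply ht₁Y
    have : t₁ = c⁻¹ * t := by simp [t]
    rw [this]
    exact mul_mem (inv_mem hcD.1) hc'
  have htN : t ∉ N := fun hc' => htY (hNY hc')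
  have htqY : t ^ q ∈ Y := by
    have key : ∀ n : ℕ, t ^ n * (t₁ ^ n)⁻¹ ∈ Y := by
      intro n
      induction n with
      | zero => simp
      | succ n ih =>
        have e : t ^ (n + 1) * (t₁ ^ (n + 1))⁻¹ = (t ^ n * (t₁ ^ n)⁻¹) * (t₁ ^ n * c * (t₁ ^ n)⁻¹) := by
          simp only [t, pow_succ, mul_inv_rev]
          group
        rw [e]
        refine mul_mem ih ?_
        exact (mem_normalizer_iff.mp (pow_mem ht₁N n) c).mp hcD.1
    have := mul_mem (key q) (hNY ht₁q)
    simpa using this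
  obtain ⟨ℓ, k, hℓ, hk, hto⟩ := hord t htN
  have hℓq : ℓ = q := (Nat.prime_dvd_prime_iff_eq hℓ hq).1 (dvd_of_pow_mem Y htY hℓ hto htqY)
  subst hℓq
  -- `s = t ^ ℓ` is trivial
  let s : G := t ^ ℓ
  have hpℓ : p.Coprime ℓ := (Nat.coprime_primes hp hq).2 hpq
  have hsd : orderOf s ∣ ℓ ^ k := by
    apply orderOf_dvd_of_pow_eq_one
    simp only [s]
    rw [← pow_mul, mul_comm, pow_mul, ← hto, pow_orderOf_eq_one, one_pow]
  have hsN : s ∈ N := by
    obtain ⟨j, hj⟩ := hYp s htqY
    apply mem_of_pow_mem_of_coprime N hj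
    exact Nat.Coprime.coprime_dvd_left hsd (Nat.Coprime.pow k j hpℓ.symm)
  have hordP : ∀ x ∈ P, ∃ i : ℕ, orderOf x = p ^ i := by
    intro x hx
    obtain ⟨i, hi⟩ := (IsPGroup.iff_orderOf.mp hPp) ⟨x, hx⟩
    exact ⟨i, by rwa [Subgroup.orderOf_mk] at hi⟩
  have hordR : ∀ x ∈ RG, ∃ i : ℕ, orderOf x = r ^ i := by
    intro x hx
    obtain ⟨i, hi⟩ := (IsPGroup.iff_orderOf.mp hRGp) ⟨x, hx⟩
    exact ⟨i, by rwa [Subgroup.orderOf_mk] at hi⟩
  have hsP : s ∈ normalizer (P : Set G) := pow_mem htP ℓ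
  have hs1 : s = 1 := by
    obtain ⟨b, hbP⟩ := IsPGroup.iff_card.mp hPp
    have hle : Subgroup.zpowers s ≤ normalizer (P : Set G) := (Subgroup.zpowers_le).2 hsP
    have hle2 : Subgroup.zpowers s ≤ N := (Subgroup.zpowers_le).2 hsN
    have hle3 : Subgroup.zpowers s ≤ normalizer ((P ⊓ N : Subgroup G) : Set G) := by
      intro x hx
      apply Cfsg.Agent.Lib.Transfer.Frobenius.mem_normalizer_of_conj_mem
      intro w hw
      obtain ⟨hw1, hw2⟩ := Subgroup.mem_inf.1 hw
      exact Subgroup.mem_inf.2 ⟨(mem_normalizer_iff.mp (hle hx) w).mp hw1, ‹N.Normal›.conj_mem w hw2 x⟩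
    have hcop : (Nat.card (Subgroup.zpowers s)).Coprime (Nat.card P) := by
      rw [Nat.card_zpowers, hbP]
      exact Nat.Coprime.coprime_dvd_left hsd (Nat.Coprime.pow k b hpℓ.symm)
    obtain ⟨c', hc', hc'N⟩ := Cfsg.Agent.Lib.Coprime.Coset.exists_centralizer_mem_coset
      (A := Subgroup.zpowers s) (K := P) (N := P ⊓ N) hle hcop (Or.inl inferInstance) inf_le_left hle3 a haP
      (by
        intro x hx
        have hx2 : x * a * x⁻¹ ∈ P := (mem_normalizer_iff.mp (hle hx) a).mp haP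
        refine Subgroup.mem_inf.2 ⟨mul_mem (inv_mem haP) hx2, ?_⟩
        have e : a⁻¹ * (x * a * x⁻¹) = (a⁻¹ * x * a) * x⁻¹ := by group
        rw [e]
        refine mul_mem ?_ (inv_mem (hle2 hx))
        have := ‹N.Normal›.conj_mem x (hle2 hx) a⁻¹
        simpa using this)
    have hc'1 : c' ∉ N := by
      intro hc''
      apply haN
      have e : a = c' * (a⁻¹ * c')⁻¹ := by group
      rw [e]
      exact mul_mem hc'' (inv_mem hc'N.2)
    have hcomm : Commute c' s := by
      have := (mem_centralizer_iff.mp hc'.2) s (Subgroup.mem_zpowers s)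
      exact this.symm
    obtain ⟨i, hi⟩ := hordP c' hc'.1
    have hcp : (orderOf c').Coprime (orderOf s) := by
      rw [hi]
      exact Nat.Coprime.coprime_dvd_right hsd (Nat.Coprime.pow i k hpℓ)
    have hmul : c' * s ∉ N := by
      intro hc''
      apply hc'1
      have e : c' = c' * s * s⁻¹ := by group
      rw [e]
      exact mul_mem hc'' (inv_mem hsN)
    rcases eq_one_or_of_comm N h hcomm hmul hcp with h1 | h1
    · exact absurd (h1 ▸ one_mem N) hc'1
    · exact h1
  have ht1 : t ≠ 1 := fun e => htN (e ▸ one_mem N)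
  have hto' : orderOf t = ℓ := orderOf_eq_prime hs1 ht1
  -- fixed points
  let V : Subgroup G := RG ⊓ centralizer (RG : Set G)
  have hVcomm : ∀ v ∈ V, ∀ w ∈ V, v * w = w * v := by
    intro v hv w hw
    exact ((mem_centralizer_iff.mp hv.2) w hw.1).symm
  have hAV : A ≤ normalizer (V : Set G) := by
    intro g hg
    apply Cfsg.Agent.Lib.Transfer.Frobenius.mem_normalizer_of_conj_mem
    intro v hv
    obtain ⟨hv1, hv2⟩ := Subgroup.mem_inf.1 hv
    refine Subgroup.mem_inf.2 ⟨(mem_normalizer_iff.mp hg v).mp hv1, ?_⟩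
    rw [mem_centralizer_iff]
    intro x hx
    have hx2 : g⁻¹ * x * g ∈ RG := by
      have := (mem_normalizer_iff.mp (inv_mem hg) x).mp hx
      simpa using this
    have h3 := (mem_centralizer_iff.mp hv2) _ hx2
    calc x * (g * v * g⁻¹) = g * ((g⁻¹ * x * g) * v) * g⁻¹ := by group
      _ = g * (v * (g⁻¹ * x * g)) * g⁻¹ := by rw [h3]
      _ = g * v * g⁻¹ * x := by group
  have hPA : P ≤ A := fun x hx => (hPD hx).2
  let B := normalizer (V : Set G)
  let PB : Subgroup B := P.subgroupOf B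
  have hPBcard : Nat.card PB = Nat.card P :=
    Nat.card_congr (Subgroup.subgroupOfEquivOfLe (hPA.trans hAV)).toEquiv
  have hkey : ∀ v : V, v ^ Nat.card PB = 1 := by
    apply frob_count (B := B) (V := V)
      (fun a b => Subtype.ext (hVcomm _ a.2 _ b.2)) V.normalizerMonoidHom PB ⟨t, hAV htA⟩ ℓ hq
    · exact Subtype.ext hs1
    · rw [mem_normalizer_iff]
      intro x
      show (x : G) ∈ P ↔ (t * x * t⁻¹ : G) ∈ P
      exact mem_normalizer_iff.mp htP x
    · intro i hi0 hiq v hv hcv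
      have hcv' : t ^ i * (v : G) = (v : G) * t ^ i := congrArg Subtype.val hcv
      have hvP : (v : G) ∈ P := hv
      have hti : t ^ i ≠ 1 := pow_ne_one_of_lt_orderOf hi0.ne' (by rwa [hto'])
      have hmul : t ^ i * (v : G) ∉ N := by
        intro hc''
        apply htY
        have h1 : t ^ i ∈ Y := by
          have e : t ^ i = t ^ i * (v : G) * (v : G)⁻¹ := by group
          rw [e]
          exact mul_mem (hNY hc'') (inv_mem (hPD hvP).1)
        apply mem_of_pow_mem_of_coprime Y h1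
        rw [hto']
        exact Nat.coprime_of_lt_prime hi0.ne' hiq hq
      obtain ⟨j, hj⟩ := hordP _ hvP
      have hcp : (orderOf (t ^ i)).Coprime (orderOf (v : G)) := by
        rw [hj]
        have hd : orderOf (t ^ i) ∣ ℓ := by
          apply orderOf_dvd_of_pow_eq_one
          rw [← pow_mul, mul_comm, pow_mul]
          have : t ^ ℓ = 1 := hs1
          rw [this, one_pow]
        exact Nat.Coprime.coprime_dvd_left hd (Nat.Coprime.pow_right j hpℓ.symm)
      rcases eq_one_or_of_comm N h hcv' hmul hcp with h1 | h1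
      · exact absurd h1 hti
      · exact Subtype.ext h1
    · intro w hw
      have hw' : t * (w : G) * t⁻¹ = w := congrArg Subtype.val hw
      have hwR : (w : G) ∈ RG := w.2.1
      have hcomm : Commute t (w : G) := by
        show t * (w : G) = (w : G) * t
        rw [← mul_inv_eq_iff_eq_mul, hw']
      have hmul : t * (w : G) ∉ N := by
        intro hc''
        apply htN
        have e : t = t * (w : G) * (w : G)⁻¹ := by group
        rw [e]
        exact mul_mem hc'' (inv_mem (hRGN hwR))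
      obtain ⟨j, hj⟩ := hordR _ hwR
      have hcp : (orderOf t).Coprime (orderOf (w : G)) := by
        rw [hto', hj]
        exact Nat.Coprime.pow_right j ((Nat.coprime_primes hq hr).2 (Ne.symm hrq))
      rcases eq_one_or_of_comm N h hcomm hmul hcp with h1 | h1
      · exact absurd h1 ht1
      · exact Subtype.ext h1
    · intro w hw
      have hwR : (w : G) ∈ RG := w.2.1
      have hw' : a * (w : G) * a⁻¹ = w := by
        have := hw ⟨a, hAV (hPA haP)⟩ haP
        exact congrArg Subtype.val this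
      have hcomm : Commute a (w : G) := by
        show a * (w : G) = (w : G) * a
        rw [← mul_inv_eq_iff_eq_mul, hw']
      have hmul : a * (w : G) ∉ N := by
        intro hc''
        apply haN
        have e : a = a * (w : G) * (w : G)⁻¹ := by group
        rw [e]
        exact mul_mem hc'' (inv_mem (hRGN hwR))
      obtain ⟨j, hj⟩ := hordR _ hwR
      have hcp : (orderOf a).Coprime (orderOf (w : G)) := by
        rw [hc₁, hj]
        exact Nat.Coprime.pow c₁ j ((Nat.coprime_primes hp hr).2 (Ne.symm hrp))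
      rcases eq_one_or_of_comm N h hcomm hmul hcp with h1 | h1
      · exact absurd (h1 ▸ one_mem N) haN
      · exact Subtype.ext h1
  -- conclusion: the centre of `R` is trivial
  haveI : Nontrivial RG := (Subgroup.nontrivial_iff_ne_bot RG).2 hRne
  haveI := hRGp.center_nontrivial
  obtain ⟨z, hz1⟩ := exists_ne (1 : Subgroup.center RG)
  have hzV : ((z : RG) : G) ∈ V := by
    refine Subgroup.mem_inf.2 ⟨(z : RG).2, ?_⟩
    rw [mem_centralizer_iff]
    intro x hx
    have := (Subgroup.mem_center_iff.mp z.2) ⟨x, hx⟩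
    exact congrArg Subtype.val this
  have h2 := hkey ⟨_, hzV⟩
  rw [hPBcard] at h2
  have h3 : ((z : RG) : G) ^ Nat.card P = 1 := congrArg Subtype.val h2
  obtain ⟨b, hb⟩ := IsPGroup.iff_card.mp hPp
  obtain ⟨j, hj⟩ := hordR _ (z : RG).2
  have h4 : orderOf ((z : RG) : G) ∣ p ^ b := by
    rw [← hb]; exact orderOf_dvd_of_pow_eq_one h3
  have hcop : (p ^ b).Coprime (orderOf ((z : RG) : G)) := by
    rw [hj]
    exact Nat.Coprime.pow b j ((Nat.coprime_primes hp hr).2 (Ne.symm hrp))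
  have h5 : orderOf ((z : RG) : G) = 1 := by
    have := Nat.Coprime.eq_one_of_dvd hcop.symm h4
    exact this
  apply hz1
  apply Subtype.ext
  apply Subtype.ext
  simpa using orderOf_eq_one_iff.mp h5

/-- If the Frobenius hypothesis holds for all primes the group is solvable. -/
theorem isSolvable_of_forall_frobeniusHyp :
    ∀ (n : ℕ) (G : Type u) [Group G] [Finite G], Nat.card G = n →
      (∀ p : ℕ, p.Prime → Cfsg.Agent.Lib.Transfer.Frobenius.FrobeniusHyp p G) → Group.IsSolvable G := by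
  intro n
  induction n using Nat.strong_induction_on with
  | _ n ih =>
    intro G _ _ hn hH
    by_cases h1 : Nat.card G = 1
    · haveI : Subsingleton G := (Nat.card_eq_one_iff_unique.mp h1).1
      infer_instance
    obtain ⟨p, hp, hdvd⟩ := Nat.exists_prime_and_dvd h1
    haveI := Fact.mk hp
    obtain ⟨P, K, hKn, hK⟩ := Cfsg.Agent.Lib.Transfer.Frobenius.hasNormalPComplement_of_hyp (hH p hp)
    have hPne : 1 < Nat.card P := by
      have h2 := Sylow.dvd_card_of_dvd_card (p := p) P hdvd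
      exact lt_of_lt_of_le hp.one_lt (Nat.le_of_dvd Nat.card_pos h2)
    have hcard : Nat.card K * Nat.card P = Nat.card G := hK.card_mul_card
    have hKlt : Nat.card K < n := by
      rw [← hn, ← hcard]
      exact lt_mul_of_one_lt_right Nat.card_pos hPne
    have hKs : Group.IsSolvable K := ih _ hKlt K rfl (fun q hq => by
      haveI := Fact.mk hq
      exact Cfsg.Agent.Lib.Transfer.Frobenius.FrobeniusHyp.subgroup (hH q hq) K)
    have hind : K.index = Nat.card P := by
      have h3 := K.card_mul_index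
      rw [← hcard] at h3
      exact Nat.eq_of_mul_eq_mul_left Nat.card_pos h3
    have hQ : IsPGroup p (G ⧸ K) := by
      obtain ⟨b, hb⟩ := IsPGroup.iff_card.mp P.isPGroup'
      rw [IsPGroup.iff_card]
      exact ⟨b, by rw [← Subgroup.index_eq_card, hind, hb]⟩
    haveI : Group.IsSolvable (G ⧸ K) := by
      haveI := hQ.isNilpotent
      infer_instance
    exact Group.isSolvable_of_ker_le_range K.subtype (QuotientGroup.mk' K) (by
      intro x hx
      rw [MonoidHom.mem_ker, QuotientGroup.mk'_apply, QuotientGroup.eq_one_iff] at hx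
      exact ⟨⟨x, hx⟩, rfl⟩)

/-- **Main theorem.**  If all elements outside the normal subgroup `N` have prime power order and
`N` is not solvable, then `G/N` is solvable. -/
theorem isSolvable_quotient (N : Subgroup G) [N.Normal] (hns : ¬ Group.IsSolvable N)
    (h : ∀ x : G, x ∉ N → IsPrimePow (orderOf x)) : Group.IsSolvable (G ⧸ N) := by
  classical
  by_contra hs
  have hnF : ¬ ∀ p : ℕ, p.Prime → Cfsg.Agent.Lib.Transfer.Frobenius.FrobeniusHyp p (G ⧸ N) :=
    fun hall => hs (isSolvable_of_forall_frobeniusHyp _ (G ⧸ N) rfl hall)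
  push Not at hnF
  obtain ⟨p, hp, hF⟩ := hnF
  unfold Cfsg.Agent.Lib.Transfer.Frobenius.FrobeniusHyp at hF
  push Not at hF
  obtain ⟨U, hU, g, hgN, hgc, hgC⟩ := hF
  haveI := Fact.mk hp
  have hg1 : orderOf g ≠ 1 := by
    intro e
    apply hgC
    rw [orderOf_eq_one_iff.mp e]
    exact one_mem _
  have hUne : U ≠ ⊥ := by
    rintro rfl
    apply hgC
    rw [mem_centralizer_iff]
    intro x hx
    have hx1 : x = 1 := by simpa using hx
    simp [hx1]
  obtain ⟨⟨ū, hūU⟩, hū⟩ := Subgroup.ne_bot_iff_exists_ne_one.mp hUne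
  have hū1 : ū ≠ 1 := fun e => hū (Subtype.ext e)
  let q := (orderOf g).minFac
  have hq : q.Prime := Nat.minFac_prime hg1
  have hqd : q ∣ orderOf g := Nat.minFac_dvd _
  have hpq : p ≠ q := by
    intro e
    have := Nat.dvd_gcd hqd (e ▸ dvd_rfl : q ∣ p)
    rw [hgc] at this
    exact hq.one_lt.ne' (Nat.dvd_one.mp this)
  let w : G ⧸ N := g ^ (orderOf g / q)
  have hwo : orderOf w = q := orderOf_pow_orderOf_div (orderOf_pos g).ne' hqd
  have hwN : w ∈ normalizer (U : Set (G ⧸ N)) := pow_mem hgN _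
  let Y : Subgroup G := U.comap (QuotientGroup.mk' N)
  have hNY : N ≤ Y := by
    intro n hn
    show (QuotientGroup.mk' N) n ∈ U
    rw [show (QuotientGroup.mk' N) n = 1 from (QuotientGroup.eq_one_iff n).mpr hn]
    exact one_mem _
  have hYp : ∀ y ∈ Y, ∃ k : ℕ, y ^ p ^ k ∈ N := by
    intro y hy
    obtain ⟨k, hk⟩ := (IsPGroup.iff_orderOf.mp hU) ⟨(QuotientGroup.mk' N) y, hy⟩
    refine ⟨k, ?_⟩
    have h1 : ((QuotientGroup.mk' N) y) ^ p ^ k = 1 := by
      have h2 := pow_orderOf_eq_one (⟨(QuotientGroup.mk' N) y, hy⟩ : U)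
      rw [hk] at h2
      exact congrArg Subtype.val h2
    rw [← map_pow] at h1
    exact (QuotientGroup.eq_one_iff _).mp h1
  obtain ⟨y₀, hy₀⟩ := QuotientGroup.mk'_surjective N ū
  obtain ⟨t₀, ht₀⟩ := QuotientGroup.mk'_surjective N w
  have hy₀Y : y₀ ∈ Y := by
    show (QuotientGroup.mk' N) y₀ ∈ U
    rw [hy₀]; exact hūU
  have hy₀N : y₀ ∉ N := by
    intro hc
    apply hū1
    rw [← hy₀]
    exact (QuotientGroup.eq_one_iff y₀).mpr hc
  have ht₀N : t₀ ∉ N := by
    intro hc
    have : w = 1 := by rw [← ht₀]; exact (QuotientGroup.eq_one_iff t₀).mpr hc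
    rw [this, orderOf_one] at hwo
    exact hq.one_lt.ne hwo
  have ht₀q : t₀ ^ q ∈ N := by
    apply (QuotientGroup.eq_one_iff _).mp
    show (QuotientGroup.mk' N) (t₀ ^ q) = 1
    rw [map_pow, ht₀, ← hwo, pow_orderOf_eq_one]
  have ht₀Y : t₀ ∈ normalizer (Y : Set G) := by
    rw [mem_normalizer_iff]
    intro x
    show (QuotientGroup.mk' N) x ∈ U ↔ (QuotientGroup.mk' N) (t₀ * x * t₀⁻¹) ∈ U
    rw [map_mul, map_mul, map_inv, ht₀]
    exact mem_normalizer_iff.mp hwN _
  have hall : ∀ r : ℕ, r.Prime → r ∣ Nat.card N → r = p ∨ r = q := by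
    intro r hr hrN
    by_contra hne
    push Not at hne
    exact false_of_prime_dvd N h hp hq hr hpq hne.1 hne.2 Y hNY hYp y₀ hy₀Y hy₀N t₀ ht₀Y ht₀N ht₀q hrN
  -- `N` is a `{p,q}`-group
  apply hns
  have hn0 : Nat.card N ≠ 0 := Nat.card_pos.ne'
  obtain ⟨a, m, hm, e1⟩ := Nat.exists_eq_pow_mul_and_not_dvd hn0 p hp.ne_one
  have hm0 : m ≠ 0 := by
    rintro rfl
    simp at e1
    exact hn0 e1
  obtain ⟨b, m', hm', e2⟩ := Nat.exists_eq_pow_mul_and_not_dvd hm0 q hq.ne_one
  have hm1 : m' = 1 := by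
    by_contra hne
    obtain ⟨r, hr, hrd⟩ := Nat.exists_prime_and_dvd hne
    have hrN : r ∣ Nat.card N := by
      rw [e1, e2]
      exact Dvd.dvd.mul_left (Dvd.dvd.mul_left hrd _) _
    rcases hall r hr hrN with rfl | rfl
    · apply hm
      rw [e2]
      exact Dvd.dvd.mul_left hrd _
    · exact hm' hrd
  exact Cfsg.Agent.Lib.Char.Burnside2.isSolvable_of_card_eq hp hq _ N a b rfl (by rw [e1, e2, hm1, mul_one])

end Cfsg.Agent.Lib.Coprime.OutsidePP
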