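import Mathlib

/-!
Commutators in nilpotent groups: a nontrivial subgroup `K` of a nilpotent group `Y` has `⁅K, Y⁆ ≠ K`.
-/

set_option autoImplicit false

namespace Cfsg.Agent.Lib.Coprime.PGroupComm

variable {G : Type*} [Group G]

/-- If `Y` is a nilpotent subgroup of `G`, `K ≤ Y` and `⁅K, Y⁆ = K` then `K = ⊥`. -/
theorem eq_bot_of_commutator_eq_self {Y K : Subgroup G} [Group.IsNilpotent Y] (hKY : K ≤ Y)
    (h : ⁅K, Y⁆ = K) : K = ⊥ := by
  obtain ⟨n, hn⟩ := (nilpotent_iff_lowerCentralSeries).mp (inferInstance : Group.IsNilpotent Y)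
  have hmap : (⊤ : Subgroup Y).map Y.subtype = Y := by
    rw [← MonoidHom.range_eq_map, Subgroup.range_subtype]
  have key : ∀ m : ℕ, K ≤ ((⊤ : Subgroup Y).lowerCentralSeries m).map Y.subtype := by
    intro m
    induction m with
    | zero =>
      simpa [hmap] using hKY
    | succ m ih =>
      have h1 : ((⊤ : Subgroup Y).lowerCentralSeries (m + 1)).map Y.subtype =
          ⁅((⊤ : Subgroup Y).lowerCentralSeries m).map Y.subtype, (⊤ : Subgroup Y).map Y.subtype⁆ := by
        rw [Subgroup.lowerCentralSeries_succ, Subgroup.map_commutator]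
      rw [h1]
      calc K = ⁅K, Y⁆ := h.symm
        _ ≤ ⁅((⊤ : Subgroup Y).lowerCentralSeries m).map Y.subtype, (⊤ : Subgroup Y).map Y.subtype⁆ := by
          apply Subgroup.commutator_mono ih
          rw [hmap]
  have := key n
  rw [hn] at this
  simpa using this

end Cfsg.Agent.Lib.Coprime.PGroupComm
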