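/-
An elementary abelian group of order `q²` acting on a `p`-group with exactly two subgroups of order `q`
having nontrivial fixed points: the group is the direct product of the two fixed point subgroups.
-/
import Mathlib
import Cfsg.Prelude.Def_Transfer
import Cfsg.Agent.Lib.Coprime.Three
import Cfsg.Agent.Lib.Coprime.GenerationE

set_option autoImplicit false
set_option linter.style.longLine false
set_option linter.unusedSectionVars false

namespace Cfsg.Agent.Lib.Coprime.QSquare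

open scoped commutatorElement
open Cfsg.Agent.Lib.Coprime.Three

universe u

variable {S : Type u} [Group S]

/-- A fixed point free automorphism: `(g x)^q = 1` for `g` in the group. -/
theorem pow_mul_eq_one_of_fpf [Finite S] {R : Subgroup S} {x : S} {q : ℕ} (hq : x ^ q = 1)
    (hxR : x ∈ Subgroup.normalizer (R : Set S)) (hfpf : ∀ g ∈ R, g * x = x * g → g = 1) (g : S) (hg : g ∈ R) :
    (g * x) ^ q = 1 := by
  let f : R → R := fun h => ⟨(h : S)⁻¹ * (x * h * x⁻¹), R.mul_mem (R.inv_mem h.2) (conj_mem_of_mem_normalizer hxR h.2)⟩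
  have hinj : Function.Injective f := by
    intro h k hhk
    have h1 : (h : S)⁻¹ * (x * h * x⁻¹) = (k : S)⁻¹ * (x * k * x⁻¹) := congrArg Subtype.val hhk
    have h2 : ((k : S) * (h : S)⁻¹) * x = x * ((k : S) * (h : S)⁻¹) := by
      have h3 : (k : S) * ((h : S)⁻¹ * (x * h * x⁻¹)) = x * k * x⁻¹ := by
        rw [h1]; group
      calc ((k : S) * (h : S)⁻¹) * x = ((k : S) * ((h : S)⁻¹ * (x * h * x⁻¹))) * x * (h : S)⁻¹ := by group
        _ = x * ((k : S) * (h : S)⁻¹) := by rw [h3]; group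
    have h3 := hfpf _ (R.mul_mem k.2 (R.inv_mem h.2)) h2
    apply Subtype.ext
    exact (mul_inv_eq_one.mp h3).symm
  obtain ⟨h, hh⟩ := (Finite.injective_iff_surjective.mp hinj) ⟨g, hg⟩
  have hg' : g = (h : S)⁻¹ * (x * h * x⁻¹) := (congrArg Subtype.val hh).symm
  have e : g * x = (h : S)⁻¹ * x * ((h : S)⁻¹)⁻¹ := by rw [hg']; group
  rw [e, conj_pow, hq]
  simp

/-- The reindexing lemma. -/
theorem prod_pow_mul_eq {Z : Type*} [CommMonoid Z] {q : ℕ} (hq : q.Prime) {i : ℕ} (hi0 : 0 < i) (hiq : i < q)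
    (F : ℕ → Z) (hF : ∀ n, F n = F (n % q)) :
    ∏ j ∈ Finset.range q, F (j * i) = ∏ k ∈ Finset.range q, F k := by
  have hcop : Nat.Coprime q i := (Nat.Prime.coprime_iff_not_dvd hq).mpr
    (fun h => absurd (Nat.le_of_dvd hi0 h) (not_le.mpr hiq))
  refine Finset.prod_nbij (fun j => j * i % q) ?_ ?_ ?_ ?_
  · intro j _
    exact Finset.mem_range.mpr (Nat.mod_lt _ hq.pos)
  · intro a ha b hb hab
    have hab' : a * i ≡ b * i [MOD q] := hab
    have h2 := Nat.ModEq.cancel_right_of_coprime (by rwa [Nat.coprime_iff_gcd_eq_one] at hcop) hab'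
    have ha' := Finset.mem_range.mp (Finset.mem_coe.mp ha)
    have hb' := Finset.mem_range.mp (Finset.mem_coe.mp hb)
    exact Nat.ModEq.eq_of_lt_of_lt h2 ha' hb'
  · apply Finset.surjOn_of_injOn_of_card_le
    · intro j _
      exact Finset.mem_coe.mpr (Finset.mem_range.mpr (Nat.mod_lt _ hq.pos))
    · intro a ha b hb hab
      have hab' : a * i ≡ b * i [MOD q] := hab
      have h2 := Nat.ModEq.cancel_right_of_coprime (by rwa [Nat.coprime_iff_gcd_eq_one] at hcop) hab'
      have ha' := Finset.mem_range.mp (Finset.mem_coe.mp ha)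
      have hb' := Finset.mem_range.mp (Finset.mem_coe.mp hb)
      exact Nat.ModEq.eq_of_lt_of_lt h2 ha' hb'
    · exact le_rfl
  · intro j _
    exact hF _

/-- The norm identity on an abelian group with two commuting automorphisms. -/
theorem norm_identity {Z : Type*} [CommGroup Z] {q : ℕ} (hq : q.Prime) (σ τ : Monoid.End Z) (hc : Commute σ τ)
    (hτ : τ ^ q = 1) (z : Z) (h2 : ∏ k ∈ Finset.range q, (τ ^ k) z = 1)
    (hj : ∀ j ∈ Finset.range q, ∏ i ∈ Finset.range q, ((σ * τ ^ j) ^ i) z = 1) : z ^ q = 1 := by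
  have h0 : ∏ j ∈ Finset.range q, ∏ i ∈ Finset.range q, ((σ * τ ^ j) ^ i) z = 1 :=
    Finset.prod_eq_one hj
  rw [Finset.prod_comm] at h0
  have hi : ∀ i ∈ Finset.range q, ∏ j ∈ Finset.range q, ((σ * τ ^ j) ^ i) z = if i = 0 then z ^ q else 1 := by
    intro i hi
    have hi' := Finset.mem_range.mp hi
    split_ifs with h
    · subst h
      simp
    · have hipos : 0 < i := Nat.pos_of_ne_zero h
      have e : ∀ j, ((σ * τ ^ j) ^ i) z = (σ ^ i) ((τ ^ (j * i)) z) := by
        intro j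
        have : Commute σ (τ ^ j) := hc.pow_right j
        rw [this.mul_pow, ← pow_mul]
        rfl
      simp_rw [e]
      rw [← map_prod]
      rw [prod_pow_mul_eq hq hipos hi' (fun n => (τ ^ n) z) (by
        intro n
        show (τ ^ n) z = (τ ^ (n % q)) z
        rw [pow_eq_pow_mod n hτ])]
      rw [h2, map_one]
  rw [Finset.prod_congr rfl hi] at h0
  rw [Finset.prod_ite_eq' (Finset.range q) 0 (fun _ => z ^ q)] at h0
  simpa [hq.pos] using h0

section Sec

variable (U P : Subgroup S) [hU : U.Normal] [hP : P.Normal]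

/-- The section `U / [U, P]`. -/
abbrev Sec : Type u := ↥U ⧸ (⁅U, P⁆ : Subgroup S).subgroupOf U

theorem conjSec_aux (x : S) :
    (⁅U, P⁆ : Subgroup S).subgroupOf U ≤ ((⁅U, P⁆ : Subgroup S).subgroupOf U).comap (MulAut.conjNormal (H := U) x).toMonoidHom := by
  intro g hg
  have h1 : (g : S) ∈ (⁅U, P⁆ : Subgroup S) := hg
  have h2 : x * g * x⁻¹ ∈ (⁅U, P⁆ : Subgroup S) :=
    (Subgroup.commutator_normal U P).conj_mem _ h1 x
  simpa [Subgroup.mem_comap, Subgroup.mem_subgroupOf, MulAut.conjNormal_apply] using h2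

/-- Conjugation on the section. -/
def conjSec (x : S) : Sec U P →* Sec U P :=
  QuotientGroup.map _ _ (MulAut.conjNormal (H := U) x).toMonoidHom (conjSec_aux U P x)

theorem conjSec_mk (x : S) (g : U) :
    conjSec U P x (g : Sec U P) = ((MulAut.conjNormal (H := U) x g : U) : Sec U P) := rfl

/-- Conjugation on the section as a monoid hom. -/
def psi : S →* Monoid.End (Sec U P) where
  toFun x := conjSec U P x
  map_one' := by
    refine MonoidHom.ext fun z => ?_
    induction z using QuotientGroup.induction_on with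
    | H g =>
    show conjSec U P 1 (g : Sec U P) = (g : Sec U P)
    rw [conjSec_mk]
    simp
  map_mul' x y := by
    refine MonoidHom.ext fun z => ?_
    induction z using QuotientGroup.induction_on with
    | H g =>
    show conjSec U P (x * y) (g : Sec U P) = conjSec U P x (conjSec U P y (g : Sec U P))
    rw [conjSec_mk, conjSec_mk, conjSec_mk, map_mul]
    rfl

theorem psi_apply_mk (x : S) (g : U) :
    psi U P x (g : Sec U P) = ((MulAut.conjNormal (H := U) x g : U) : Sec U P) := rfl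

theorem psi_of_mem (x : S) (hx : x ∈ P) : psi U P x = 1 := by
  refine MonoidHom.ext fun z => ?_
  induction z using QuotientGroup.induction_on with
  | H g =>
  show psi U P x (g : Sec U P) = (g : Sec U P)
  rw [psi_apply_mk, QuotientGroup.eq]
  show ((MulAut.conjNormal (H := U) x g : U)⁻¹ * g : U).1 ∈ (⁅U, P⁆ : Subgroup S)
  simp only [MulAut.conjNormal_apply, Subgroup.coe_mul, Subgroup.coe_inv]
  have h1 : ⁅(g : S)⁻¹, x⁻¹⁆ ∈ (⁅U, P⁆ : Subgroup S) :=
    Subgroup.commutator_mem_commutator (U.inv_mem g.2) (P.inv_mem hx)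
  have e : (x * (g : S) * x⁻¹)⁻¹ * g = x * ⁅(g : S)⁻¹, x⁻¹⁆ * x⁻¹ := by
    rw [commutatorElement_def]; group
  rw [e]
  exact (Subgroup.commutator_normal U P).conj_mem _ h1 x

/-- The section is abelian when `U ≤ P`. -/
theorem sec_comm (hUP : U ≤ P) (a b : Sec U P) : a * b = b * a := by
  induction a using QuotientGroup.induction_on with
  | H a =>
  induction b using QuotientGroup.induction_on with
  | H b =>
  rw [← QuotientGroup.mk_mul, ← QuotientGroup.mk_mul, QuotientGroup.eq]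
  show ((a * b)⁻¹ * (b * a) : U).1 ∈ (⁅U, P⁆ : Subgroup S)
  have h1 : ⁅((b : U) : S)⁻¹, ((a : U) : S)⁻¹⁆ ∈ (⁅U, P⁆ : Subgroup S) :=
    Subgroup.commutator_mem_commutator (U.inv_mem b.2) (P.inv_mem (hUP a.2))
  have e : (((a * b)⁻¹ * (b * a) : U) : S) = ⁅((b : U) : S)⁻¹, ((a : U) : S)⁻¹⁆ := by
    simp only [Subgroup.coe_mul, Subgroup.coe_inv, commutatorElement_def]
    group
  rw [e]
  exact h1

/-- The key computation: if `y^q = 1` and `(g y)^q = 1` then the norm of `g` vanishes on the section. -/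
theorem norm_eq_one_of_pow {q : ℕ} (y : S) (g : U) (hy : y ^ q = 1) (hg : ((g : S) * y) ^ q = 1)
    (hcomm : ∀ a b : Sec U P, a * b = b * a) :
    letI : CommGroup (Sec U P) := { (inferInstance : Group (Sec U P)) with mul_comm := hcomm }
    ∏ i ∈ Finset.range q, ((psi U P y) ^ i) (g : Sec U P) = 1 := by
  letI : CommGroup (Sec U P) := { (inferInstance : Group (Sec U P)) with mul_comm := hcomm }
  have key : ∀ n : ℕ, ∃ p : U, ((g : S) * y) ^ n = (p : S) * y ^ n ∧
      (p : Sec U P) = ∏ i ∈ Finset.range n, ((psi U P y) ^ i) (g : Sec U P) := by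
    intro n
    induction n with
    | zero =>
      refine ⟨1, by simp, ?_⟩
      simp
    | succ n ih =>
      obtain ⟨p, hp1, hp2⟩ := ih
      let g' : U := MulAut.conjNormal (H := U) (y ^ n) g
      refine ⟨p * g', ?_, ?_⟩
      · rw [pow_succ, hp1]
        simp only [Subgroup.coe_mul, g', MulAut.conjNormal_apply]
        group
      · rw [Finset.prod_range_succ, ← hp2, QuotientGroup.mk_mul]
        congr 1
        rw [← map_pow]
        rfl
  obtain ⟨p, hp1, hp2⟩ := key q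
  rw [← hp2, hg, hy, mul_one] at *
  have : p = 1 := Subtype.ext hp1.symm
  rw [this]
  rfl

end Sec

section Main

variable [Finite S]

theorem mem_centralizer_zpowers' {x u : S} : u ∈ Subgroup.centralizer ((Subgroup.zpowers x : Subgroup S) : Set S) ↔ u * x = x * u := by
  constructor
  · intro h
    exact ((Subgroup.mem_centralizer_iff.mp h) x (Subgroup.mem_zpowers x)).symm
  · intro h
    rw [Subgroup.mem_centralizer_iff]
    rintro _ ⟨k, rfl⟩
    have : Commute x u := (show Commute u x from h).symm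
    exact (this.zpow_left k).eq

theorem exists_gen {q : ℕ} [Fact q.Prime] (X : Subgroup S) (hc : Nat.card X = q) :
    ∃ x : S, x ≠ 1 ∧ X = Subgroup.zpowers x := by
  haveI : IsCyclic X := isCyclic_of_prime_card hc
  obtain ⟨g, hg⟩ := IsCyclic.exists_generator (α := X)
  refine ⟨g, ?_, ?_⟩
  · intro h
    have hg1 : g = 1 := Subtype.ext h
    have : ∀ y : X, y = 1 := by
      intro y
      obtain ⟨k, hk⟩ := Subgroup.mem_zpowers_iff.mp (hg y)
      rw [← hk, hg1, one_zpow]
    have hcard : Nat.card X = 1 := by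
      rw [Nat.card_eq_one_iff_unique]
      exact ⟨⟨fun a b => by rw [this a, this b]⟩, ⟨1⟩⟩
    rw [hcard] at hc
    exact (Fact.out : q.Prime).one_lt.ne hc
  · ext y
    constructor
    · intro hy
      obtain ⟨k, hk⟩ := Subgroup.mem_zpowers_iff.mp (hg ⟨y, hy⟩)
      exact ⟨k, by simpa using congrArg Subtype.val hk⟩
    · rintro ⟨k, rfl⟩
      exact X.zpow_mem g.2 k

/-- The main theorem, with minimal hypotheses. -/
theorem direct_decomposition {p q : ℕ} [Fact p.Prime] [Fact q.Prime] (hpq : p ≠ q)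
    (P : Subgroup S) [hPn : P.Normal] (hP : IsPGroup p P) (Q : Subgroup S) (hQ : Cfsg.IsElementaryAbelian q Q)
    (hQc : Nat.card Q = q ^ 2) (X₁ X₂ : Subgroup S) (h₁ : X₁ ≤ Q) (h₂ : X₂ ≤ Q) (h₁₂ : X₁ ≠ X₂)
    (hc₁ : Nat.card X₁ = q) (hc₂ : Nat.card X₂ = q)
    (honly : ∀ X : Subgroup S, X ≤ Q → Nat.card X = q → P ⊓ Subgroup.centralizer (X : Set S) ≠ ⊥ → X = X₁ ∨ X = X₂) :
    ⁅P ⊓ Subgroup.centralizer (X₁ : Set S), P ⊓ Subgroup.centralizer (X₂ : Set S)⁆ = ⊥ ∧
      (P ⊓ Subgroup.centralizer (X₁ : Set S)) ⊓ (P ⊓ Subgroup.centralizer (X₂ : Set S)) = ⊥ ∧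
      (P ⊓ Subgroup.centralizer (X₁ : Set S)) ⊔ (P ⊓ Subgroup.centralizer (X₂ : Set S)) = P := by
  classical
  have hq : q.Prime := Fact.out
  obtain ⟨x₁, hx₁, rfl⟩ := exists_gen X₁ hc₁
  obtain ⟨x₂, hx₂, rfl⟩ := exists_gen X₂ hc₂
  have hx₁Q : x₁ ∈ Q := h₁ (Subgroup.mem_zpowers x₁)
  have hx₂Q : x₂ ∈ Q := h₂ (Subgroup.mem_zpowers x₂)
  have hqpow : ∀ y ∈ Q, y ^ q = 1 := hQ.2
  have hcomm : x₁ * x₂ = x₂ * x₁ := by
    have := hQ.1.is_comm.comm (⟨x₁, hx₁Q⟩ : Q) ⟨x₂, hx₂Q⟩
    exact congrArg Subtype.val this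
  have hCc : Commute x₁ x₂ := hcomm
  have hPQ : ∀ y ∈ Q, y ∈ Subgroup.normalizer (P : Set S) := fun y _ => by
    rw [Subgroup.mem_normalizer_iff]
    intro h
    refine ⟨fun hh => hPn.conj_mem _ hh y, fun hh => ?_⟩
    have := hPn.conj_mem _ hh y⁻¹
    simpa [mul_assoc] using this
  -- Subgroups generated by elements of `Q`
  have hcard_zp : ∀ y ∈ Q, y ≠ 1 → Nat.card (Subgroup.zpowers y) = q := by
    intro y hy hy1
    rw [Nat.card_zpowers]
    exact orderOf_eq_prime (hqpow y hy) hy1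
  have hne₂ : x₂ ∉ Subgroup.zpowers x₁ := by
    intro h
    apply h₁₂
    have h1 : Subgroup.zpowers x₂ ≤ Subgroup.zpowers x₁ := by
      rw [Subgroup.zpowers_le]; exact h
    exact (Subgroup.eq_of_le_of_card_ge h1 (by rw [hc₁, hc₂])).symm
  have hne₁ : x₁ ∉ Subgroup.zpowers x₂ := by
    intro h
    apply h₁₂
    have h1 : Subgroup.zpowers x₁ ≤ Subgroup.zpowers x₂ := by
      rw [Subgroup.zpowers_le]; exact h
    exact (Subgroup.eq_of_le_of_card_ge h1 (by rw [hc₁, hc₂]))
  -- `x₂ ^ j` is not in `⟨x₁⟩` for `0 < j < q`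
  have hord₂ : orderOf x₂ = q := orderOf_eq_prime (hqpow _ hx₂Q) hx₂
  have hne₂' : ∀ j : ℕ, 0 < j → j < q → x₂ ^ j ∉ Subgroup.zpowers x₁ := by
    intro j hj0 hjq h
    apply hne₂
    have hcop : Nat.gcd j q = 1 := by
      rw [Nat.gcd_comm]
      exact (Nat.Prime.coprime_iff_not_dvd hq).mpr (fun h => absurd (Nat.le_of_dvd hj0 h) (not_le.mpr hjq))
    have e : x₂ = (x₂ ^ j) ^ (Nat.gcdA j q) * (x₂ ^ q) ^ (Nat.gcdB j q) := by
      have h3 := Nat.gcd_eq_gcd_ab j q
      rw [hcop] at h3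
      rw [← zpow_natCast, ← zpow_natCast, ← zpow_mul, ← zpow_mul, ← zpow_add]
      rw [← h3]
      simp
    rw [e, hqpow _ hx₂Q, one_zpow, mul_one]
    exact Subgroup.zpow_mem _ h _
  -- the elements `x₁ * x₂^j` act without fixed points
  have hfpfy : ∀ j : ℕ, 0 < j → j < q → ∀ g ∈ P, g * (x₁ * x₂ ^ j) = (x₁ * x₂ ^ j) * g → g = 1 := by
    intro j hj0 hjq g hg hgc
    set y := x₁ * x₂ ^ j with hy
    have hyQ : y ∈ Q := Q.mul_mem hx₁Q (Q.pow_mem hx₂Q j)
    have hy1 : y ≠ 1 := by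
      intro h
      have h5 : x₂ ^ j = x₁⁻¹ := by
        rw [hy] at h
        exact eq_inv_of_mul_eq_one_right h
      apply hne₂' j hj0 hjq
      rw [h5]
      exact Subgroup.inv_mem _ (Subgroup.mem_zpowers x₁)
    have hcy := hcard_zp y hyQ hy1
    by_contra hg1
    have hne : P ⊓ Subgroup.centralizer ((Subgroup.zpowers y : Subgroup S) : Set S) ≠ ⊥ := by
      intro hbot
      have : g ∈ P ⊓ Subgroup.centralizer ((Subgroup.zpowers y : Subgroup S) : Set S) :=
        ⟨hg, mem_centralizer_zpowers'.mpr hgc⟩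
      rw [hbot, Subgroup.mem_bot] at this
      exact hg1 this
    have hle : Subgroup.zpowers y ≤ Q := by
      rw [Subgroup.zpowers_le]; exact hyQ
    rcases honly _ hle hcy hne with h | h
    · have hyX : y ∈ Subgroup.zpowers x₁ := h ▸ Subgroup.mem_zpowers y
      apply hne₂' j hj0 hjq
      have e : x₂ ^ j = x₁⁻¹ * y := by rw [hy]; group
      rw [e]
      exact Subgroup.mul_mem _ (Subgroup.inv_mem _ (Subgroup.mem_zpowers x₁)) hyX
    · have hyX : y ∈ Subgroup.zpowers x₂ := h ▸ Subgroup.mem_zpowers y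
      apply hne₁
      have e : x₁ = y * (x₂ ^ j)⁻¹ := by rw [hy]; group
      rw [e]
      exact Subgroup.mul_mem _ hyX (Subgroup.inv_mem _ (Subgroup.pow_mem _ (Subgroup.mem_zpowers x₂) j))
  -- a particular element: `j = 1`
  have hq1 : 1 < q := hq.one_lt
  have hfpf₃ : ∀ g ∈ P, g * x₁ = x₁ * g → g * x₂ = x₂ * g → g = 1 := by
    intro g hg h1 h2
    apply hfpfy 1 one_pos hq1 g hg
    rw [pow_one]
    calc g * (x₁ * x₂) = (g * x₁) * x₂ := by group
      _ = x₁ * (g * x₂) := by rw [h1]; group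
      _ = x₁ * (x₂ * g) := by rw [h2]
      _ = x₁ * x₂ * g := by group
  set A : Subgroup S := P ⊓ Subgroup.centralizer ((Subgroup.zpowers x₁ : Subgroup S) : Set S) with hA
  set B : Subgroup S := P ⊓ Subgroup.centralizer ((Subgroup.zpowers x₂ : Subgroup S) : Set S) with hB
  have memA : ∀ {g : S}, g ∈ A ↔ g ∈ P ∧ g * x₁ = x₁ * g := by
    intro g
    exact and_congr Iff.rfl mem_centralizer_zpowers'
  have memB : ∀ {g : S}, g ∈ B ↔ g ∈ P ∧ g * x₂ = x₂ * g := by
    intro g
    exact and_congr Iff.rfl mem_centralizer_zpowers'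
  have hinf : A ⊓ B = ⊥ := by
    rw [eq_bot_iff]
    intro g hg
    exact (Subgroup.mem_bot).mpr (hfpf₃ g (memA.mp hg.1).1 (memA.mp hg.1).2 (memB.mp hg.2).2)
  -- Generation
  have hsup : A ⊔ B = P := by
    apply le_antisymm (sup_le inf_le_left inf_le_left)
    have hndvd : ¬ q ∣ Nat.card P := by
      obtain ⟨n, hn⟩ := IsPGroup.iff_card.mp hP
      rw [hn]
      intro hd
      have := (Nat.prime_dvd_prime_iff_eq hq Fact.out).mp (hq.dvd_of_dvd_pow hd)
      exact hpq this.symm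
    refine (Cfsg.Agent.Lib.Coprime.GenerationE.le_iSup_relIndex_le Q P hQ hndvd (fun y hy => hPQ y hy)).trans ?_
    refine iSup_le ?_
    rintro ⟨T, hTQ, hTi⟩
    -- index of `T` in `Q` is at most `q`; so `T` is all of `Q` or has order `q`
    have hmul : Nat.card T * T.relIndex Q = q ^ 2 := by
      rw [← hQc, ← Subgroup.relIndex_bot_left T, ← Subgroup.relIndex_bot_left Q]
      exact Subgroup.relIndex_mul_relIndex ⊥ T Q bot_le hTQ
    have hdvd : T.relIndex Q ∣ q ^ 2 := Dvd.intro_left _ hmul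
    obtain ⟨k, hk, hk2⟩ := (Nat.dvd_prime_pow hq).mp hdvd
    by_cases hk0 : k = 0
    · -- `T = Q`
      subst hk0
      have h1 : Nat.card T = q ^ 2 := by
        rw [hk2] at hmul; simpa using hmul
      have hTeq : T = Q := Subgroup.eq_of_le_of_card_ge hTQ (by rw [hQc, h1])
      subst hTeq
      show P ⊓ Subgroup.centralizer (T : Set S) ≤ A ⊔ B
      refine le_trans ?_ le_sup_left
      intro g hg
      refine memA.mpr ⟨hg.1, ?_⟩
      exact ((Subgroup.mem_centralizer_iff.mp hg.2) x₁ hx₁Q).symm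
    · have hk1 : k = 1 := by
        have : q ^ k ≤ q := by rw [← hk2]; exact hTi
        have hk' : k ≤ 1 := by
          by_contra hlt
          have h2 : q ^ 2 ≤ q ^ k := Nat.pow_le_pow_right hq.pos (by omega)
          have h3 : q ^ 2 ≤ q := h2.trans this
          nlinarith [hq.two_le]
        omega
      subst hk1
      have h1 : Nat.card T = q := by
        rw [hk2, pow_one] at hmul
        have : Nat.card T * q = q * q := by rw [hmul]; ring
        exact Nat.eq_of_mul_eq_mul_right hq.pos this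
      show P ⊓ Subgroup.centralizer (T : Set S) ≤ A ⊔ B
      by_cases hbot : P ⊓ Subgroup.centralizer (T : Set S) = ⊥
      · rw [hbot]; exact bot_le
      · rcases honly T hTQ h1 hbot with h | h
        · rw [h]; exact le_sup_left
        · rw [h]; exact le_sup_right
  refine ⟨?_, hinf, hsup⟩
  -- commutators: descent along `U ↦ [U, P]`
  have hnilP : Group.IsNilpotent P := hP.isNilpotent
  have hxAB₁ : ∀ b ∈ B, (b * x₁) ^ q = 1 := by
    intro b hb
    refine pow_mul_eq_one_of_fpf (hqpow _ hx₁Q) ?_ ?_ b hb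
    · -- `x₁` normalizes `B`
      exact (mem_normalizer_of_conj_mem (V := B) (fun v hv => by
        obtain ⟨hv1, hv2⟩ := memB.mp hv
        refine memB.mpr ⟨hPn.conj_mem _ hv1 x₁, ?_⟩
        have : x₁ * v * x₁⁻¹ * x₂ = x₁ * (v * x₂) * x₁⁻¹ := by
          have h7 : x₁⁻¹ * x₂ = x₂ * x₁⁻¹ := by
            rw [inv_mul_eq_iff_eq_mul, ← mul_assoc, hcomm]; group
          calc x₁ * v * x₁⁻¹ * x₂ = x₁ * v * (x₁⁻¹ * x₂) := by group
            _ = x₁ * (v * x₂) * x₁⁻¹ := by rw [h7]; group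
        rw [this, hv2]
        have h8 : x₁ * (x₂ * v) * x₁⁻¹ = (x₁ * x₂) * v * x₁⁻¹ := by group
        rw [h8, hcomm]
        group))
    · intro g hg hgc
      exact hfpf₃ g (memB.mp hg).1 hgc (memB.mp hg).2
  have hxAB₂ : ∀ a ∈ A, (a * x₂) ^ q = 1 := by
    intro a ha
    refine pow_mul_eq_one_of_fpf (hqpow _ hx₂Q) ?_ ?_ a ha
    · exact (mem_normalizer_of_conj_mem (V := A) (fun v hv => by
        obtain ⟨hv1, hv2⟩ := memA.mp hv
        refine memA.mpr ⟨hPn.conj_mem _ hv1 x₂, ?_⟩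
        have : x₂ * v * x₂⁻¹ * x₁ = x₂ * (v * x₁) * x₂⁻¹ := by
          have h7 : x₂⁻¹ * x₁ = x₁ * x₂⁻¹ := by
            rw [inv_mul_eq_iff_eq_mul, ← mul_assoc, ← hcomm]; group
          calc x₂ * v * x₂⁻¹ * x₁ = x₂ * v * (x₂⁻¹ * x₁) := by group
            _ = x₂ * (v * x₁) * x₂⁻¹ := by rw [h7]; group
        rw [this, hv2]
        have h8 : x₂ * (x₁ * v) * x₂⁻¹ = (x₂ * x₁) * v * x₂⁻¹ := by group
        rw [h8, ← hcomm]
        group))
    · intro g hg hgc
      exact hfpf₃ g (memA.mp hg).1 (memA.mp hg).2 hgc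
  have hyq : ∀ j : ℕ, (x₁ * x₂ ^ j) ^ q = 1 := fun j =>
    hqpow _ (Q.mul_mem hx₁Q (Q.pow_mem hx₂Q j))
  -- the step
  have step : ∀ U : Subgroup S, U.Normal → U ≤ P → ⁅A, B⁆ ≤ U → ⁅A, B⁆ ≤ ⁅U, P⁆ := by
    intro U hUn hUP hAB
    haveI := hUn
    rw [Subgroup.commutator_le]
    intro a ha b hb
    obtain ⟨haP, hax⟩ := memA.mp ha
    obtain ⟨hbP, hbx⟩ := memB.mp hb
    set c : S := ⁅a, b⁆ with hc
    have hcU : c ∈ U := hAB (Subgroup.commutator_mem_commutator ha hb)
    let hcommZ := sec_comm U P hUP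
    letI : CommGroup (Sec U P) := { (inferInstance : Group (Sec U P)) with mul_comm := hcommZ }
    let z : Sec U P := ((⟨c, hcU⟩ : U) : Sec U P)
    let σ : Monoid.End (Sec U P) := psi U P x₁
    let τ : Monoid.End (Sec U P) := psi U P x₂
    have hστ : Commute σ τ := by
      show psi U P x₁ * psi U P x₂ = psi U P x₂ * psi U P x₁
      rw [← map_mul, ← map_mul, hcomm]
    have hτq : τ ^ q = 1 := by
      show (psi U P x₂) ^ q = 1
      rw [← map_pow, hqpow _ hx₂Q, map_one]
    have hconj1 : ((c * (b * x₁)) ^ q) = 1 := by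
      have e : c * (b * x₁) = a * (b * x₁) * a⁻¹ := by
        rw [hc, commutatorElement_def]
        have h9 : x₁ * a⁻¹ = a⁻¹ * x₁ := by
          rw [eq_inv_mul_iff_mul_eq, ← mul_assoc, hax]; group
        calc a * b * a⁻¹ * b⁻¹ * (b * x₁) = a * b * (a⁻¹ * x₁) := by group
          _ = a * (b * x₁) * a⁻¹ := by rw [← h9]; group
      rw [e, conj_pow, hxAB₁ b hb]
      simp
    have hconj2 : (((c⁻¹) * (a * x₂)) ^ q) = 1 := by
      have e : c⁻¹ * (a * x₂) = b * (a * x₂) * b⁻¹ := by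
        rw [hc, commutatorElement_def]
        have h9 : x₂ * b⁻¹ = b⁻¹ * x₂ := by
          rw [eq_inv_mul_iff_mul_eq, ← mul_assoc, hbx]; group
        calc (a * b * a⁻¹ * b⁻¹)⁻¹ * (a * x₂) = b * a * b⁻¹ * x₂ := by group
          _ = b * a * (b⁻¹ * x₂) := by group
          _ = b * (a * x₂) * b⁻¹ := by rw [← h9]; group
      rw [e, conj_pow, hxAB₂ a ha]
      simp
    have h0 : ∏ i ∈ Finset.range q, (σ ^ i) z = 1 := by
      have := norm_eq_one_of_pow U P (q := q) (b * x₁) ⟨c, hcU⟩ (hxAB₁ b hb) hconj1 hcommZ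
      have hψ : psi U P (b * x₁) = σ := by
        rw [map_mul, psi_of_mem U P b hbP, one_mul]
      rw [hψ] at this
      exact this
    have h2 : ∏ k ∈ Finset.range q, (τ ^ k) z = 1 := by
      have := norm_eq_one_of_pow U P (q := q) (a * x₂) ⟨c⁻¹, U.inv_mem hcU⟩ (hxAB₂ a ha) hconj2 hcommZ
      have hψ : psi U P (a * x₂) = τ := by
        rw [map_mul, psi_of_mem U P a haP, one_mul]
      rw [hψ] at this
      have h3 : ∀ k, (τ ^ k) (((⟨c⁻¹, U.inv_mem hcU⟩ : U) : Sec U P)) = ((τ ^ k) z)⁻¹ := by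
        intro k
        rw [← map_inv]
        rfl
      simp_rw [h3] at this
      rw [Finset.prod_inv_distrib, inv_eq_one] at this
      exact this
    have hj : ∀ j ∈ Finset.range q, ∏ i ∈ Finset.range q, ((σ * τ ^ j) ^ i) z = 1 := by
      intro j hj
      have hj' := Finset.mem_range.mp hj
      by_cases hj0 : j = 0
      · subst hj0
        simpa using h0
      · have hpos : 0 < j := Nat.pos_of_ne_zero hj0
        have h5 : ((c * (x₁ * x₂ ^ j)) ^ q) = 1 :=
          pow_mul_eq_one_of_fpf (hyq j) (fun g => by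
            exact hPQ _ (Q.mul_mem hx₁Q (Q.pow_mem hx₂Q j)) |> fun h => (Subgroup.mem_normalizer_iff.mp h) g)
            (hfpfy j hpos hj') c (hUP hcU)
        have := norm_eq_one_of_pow U P (q := q) (x₁ * x₂ ^ j) ⟨c, hcU⟩ (hyq j) h5 hcommZ
        have hψ : psi U P (x₁ * x₂ ^ j) = σ * τ ^ j := by
          rw [map_mul, map_pow]
        rw [hψ] at this
        exact this
    have hzq : z ^ q = 1 := norm_identity hq σ τ hστ hτq z h2 hj
    -- `z` has `p`-power order
    obtain ⟨m, hm⟩ := hP (⟨c, hUP hcU⟩ : P)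
    have hcpm : c ^ p ^ m = 1 := by
      have := congrArg Subtype.val hm
      simpa using this
    have hzpm : z ^ p ^ m = 1 := by
      show ((⟨c, hcU⟩ : U) : Sec U P) ^ p ^ m = 1
      rw [← QuotientGroup.mk_pow]
      have : (⟨c, hcU⟩ : U) ^ p ^ m = 1 := Subtype.ext (by simpa using hcpm)
      rw [this]
      rfl
    have hz1 : z = 1 := by
      have h6 : orderOf z ∣ q := orderOf_dvd_of_pow_eq_one hzq
      have h7 : orderOf z ∣ p ^ m := orderOf_dvd_of_pow_eq_one hzpm
      have hcop : Nat.Coprime q (p ^ m) := Nat.Coprime.pow_right m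
        ((Nat.coprime_primes hq Fact.out).mpr (Ne.symm hpq))
      have : orderOf z = 1 := Nat.eq_one_of_dvd_coprimes hcop h6 h7
      exact orderOf_eq_one_iff.mp this
    have hmem : (⟨c, hcU⟩ : U) ∈ (⁅U, P⁆ : Subgroup S).subgroupOf U := (QuotientGroup.eq_one_iff _).mp hz1
    exact hmem
  -- minimal choice of `U`
  let F : Set (Subgroup S) := {U | U.Normal ∧ U ≤ P ∧ ⁅A, B⁆ ≤ U}
  have hFne : F.Nonempty := ⟨P, hPn, le_rfl, by
    rw [Subgroup.commutator_le]
    intro a ha b hb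
    rw [commutatorElement_def]
    have ha' := (memA.mp ha).1
    have hb' := (memB.mp hb).1
    exact P.mul_mem (P.mul_mem (P.mul_mem ha' hb') (P.inv_mem ha')) (P.inv_mem hb')⟩
  obtain ⟨U, ⟨hUn, hUP, hUAB⟩, hUmin⟩ := F.toFinite.exists_minimal hFne
  haveI := hUn
  have hUle : ⁅U, P⁆ ≤ U := Subgroup.commutator_le_left U P
  have hUF : ⁅U, P⁆ ∈ F := ⟨inferInstance, hUle.trans hUP, step U hUn hUP hUAB⟩
  have hUeq : ⁅U, P⁆ = U := le_antisymm hUle (hUmin hUF hUle)
  have hUbot : U = ⊥ := by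
    by_contra hne
    exact commutator_ne_of_isNilpotent hnilP hUP hne hUeq
  rw [hUbot] at hUAB
  exact le_bot_iff.mp hUAB

end Main

end Cfsg.Agent.Lib.Coprime.QSquare
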