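import Mathlib
import Cfsg.Agent.Lib.Coprime.TIHallMain
import Cfsg.Agent.S0058
import Cfsg.Agent.Lib.Frobenius.SylowFpf

/-!
# Fixed points of a complement on a TI Hall subgroup

`H` a non-normal TI-subgroup, Hall in `N_G(H)`, `G` `π`-separable.  All abelian subgroups of `H` are
cyclic.  When the Sylow `2`-subgroups of `H` are abelian, `H` is a Z-group, and the fixed points of a
complement `Q` of `H` in `N_G(H)` form a Hall subgroup of `G` with a normal complement.
-/

set_option autoImplicit false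
set_option linter.unusedSectionVars false
set_option linter.style.haveILetI false

namespace Cfsg.Agent.Lib.Coprime.TIHall

open Subgroup Cfsg.Agent.Lib.Coprime.Averaging Cfsg.Agent.Lib.Coprime.Coset
open scoped commutatorElement Pointwise

variable {G : Type*} [Group G] [Finite G]

theorem commutator_ne_bot {H O : Subgroup G} (hnn : ¬ H.Normal)
    (htop : O ⊔ normalizer (H : Set G) = ⊤) : ⁅O, H⁆ ≠ ⊥ := by
  intro h0
  rw [Subgroup.commutator_eq_bot_iff_le_centralizer] at h0
  apply hnn
  have h1 : O ≤ normalizer (H : Set G) := h0.trans (Subgroup.centralizer_le_normalizer _)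
  rw [sup_eq_right.mpr h1] at htop
  exact normalizer_eq_top_iff.mp htop

theorem mem_centralizer_of_commute {H O : Subgroup G} (hTI : Cfsg.IsTISubset (H : Set G))
    [hOn : O.Normal] (hOc : (Nat.card O).Coprime (Nat.card H)) {h x : G} (hh : h ∈ H) (hh1 : h ≠ 1)
    (hx : x ∈ O) (hxh : x * h = h * x) : x ∈ centralizer (H : Set G) := by
  have hinf : O ⊓ H = ⊥ := Cfsg.Agent.Lib.Coprime.Coset.inf_eq_bot_of_coprime hOc
  have hxN : x ∈ normalizer (H : Set G) := by
    refine mem_normalizer_of_conj hTI hh hh1 ?_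
    rw [hxh, mul_inv_cancel_right]
    exact hh
  rw [Subgroup.mem_centralizer_iff]
  intro y hy
  have h1 : x * y * x⁻¹ * y⁻¹ ∈ H :=
    H.mul_mem ((mem_normalizer_iff.mp hxN y).mp hy) (H.inv_mem hy)
  have h2 : x * y * x⁻¹ * y⁻¹ ∈ O := by
    have h3 : x * (y * x⁻¹ * y⁻¹) = x * y * x⁻¹ * y⁻¹ := by group
    rw [← h3]
    exact O.mul_mem hx (hOn.conj_mem _ (O.inv_mem hx) y)
  have h4 : x * y * x⁻¹ * y⁻¹ ∈ O ⊓ H := ⟨h2, h1⟩
  rw [hinf, Subgroup.mem_bot] at h4
  have h5 : x * y = y * x := by
    calc x * y = (x * y * x⁻¹ * y⁻¹) * (y * x) := by group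
      _ = y * x := by rw [h4, one_mul]
  exact h5.symm

/-- All abelian subgroups of `H` are cyclic. -/
theorem isCyclic_of_comm {H O : Subgroup G} (hTI : Cfsg.IsTISubset (H : Set G))
    [hOn : O.Normal] (hOc : (Nat.card O).Coprime (Nat.card H)) (hne : ⁅O, H⁆ ≠ ⊥)
    (E : Subgroup G) (hEH : E ≤ H) [IsMulCommutative E] : IsCyclic E := by
  by_contra hE
  have hHO : H ≤ normalizer (O : Set G) := by
    rw [normalizer_eq_top_iff.mpr hOn]
    exact le_top
  have hc : (Nat.card E).Coprime (Nat.card O) :=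
    hOc.symm.coprime_dvd_left (Subgroup.card_dvd_of_le hEH)
  have h := Cfsg.Agent.S0058.result E O hE (hEH.trans hHO) hc
  apply hne
  rw [Subgroup.commutator_eq_bot_iff_le_centralizer, ← h]
  refine iSup₂_le ?_
  rintro a ⟨ha, ha1⟩ x ⟨hx1, hx2⟩
  refine mem_centralizer_of_commute hTI hOc (hEH ha) ha1 hx1 ?_
  exact (Subgroup.mem_centralizer_iff.mp hx2 a rfl).symm

/-- `H` is a Z-group. -/
theorem isZGroup_of {H : Subgroup G}
    (hab : ∀ E : Subgroup G, E ≤ H → IsMulCommutative E → IsCyclic E)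
    (h2 : ∀ P : Sylow 2 H, IsMulCommutative (P : Subgroup H)) : IsZGroup H := by
  refine ⟨?_⟩
  intro r hr P
  haveI : Fact r.Prime := ⟨hr⟩
  let f : (P : Subgroup H) →* G := H.subtype.comp (P : Subgroup H).subtype
  have hf : Function.Injective f := H.subtype_injective.comp (P : Subgroup H).subtype_injective
  have hsub : ∀ E : Subgroup (P : Subgroup H), IsMulCommutative E → IsCyclic E := by
    intro E hE
    have hle : E.map f ≤ H := by
      rintro _ ⟨x, -, rfl⟩
      exact (x : H).2
    let e : E ≃* (E.map f) := E.equivMapOfInjective f hf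
    haveI : IsMulCommutative (E.map f) := by
      refine ⟨⟨fun a b => ?_⟩⟩
      have h1 := mul_comm' (e.symm a) (e.symm b)
      apply e.symm.injective
      rw [map_mul, map_mul, h1]
    haveI := hab _ hle inferInstance
    exact isCyclic_of_surjective e.symm e.symm.surjective
  have hPp : IsPGroup r (P : Subgroup H) := P.2
  by_cases hr2 : r = 2
  · subst hr2
    haveI : IsMulCommutative (⊤ : Subgroup (P : Subgroup H)) := by
      have := h2 P
      refine ⟨⟨fun a b => Subtype.ext ?_⟩⟩
      exact mul_comm' (a : (P : Subgroup H)) b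
    have h3 := hsub ⊤ inferInstance
    exact isCyclic_of_surjective (Subgroup.topEquiv (G := (P : Subgroup H))).toMonoidHom
      (Subgroup.topEquiv (G := (P : Subgroup H))).surjective
  · rcases Cfsg.Agent.S0016.result r hPp (by
      apply Cfsg.Agent.Lib.Frobenius.SylowFpf.unique_of_no_elementary hPp
      intro E hE hexp
      haveI : IsMulCommutative E := IsPGroup.isMulCommutative_of_card_eq_prime_sq (p := r) hE
      have h3 := hsub E inferInstance
      obtain ⟨g, hg⟩ := h3
      have h4 : orderOf g = r ^ 2 := by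
        rw [← hE]
        exact orderOf_eq_card_of_forall_mem_zpowers hg
      have h5 : g ^ r = 1 := Subtype.ext (hexp g g.2)
      have h6 := orderOf_dvd_of_pow_eq_one h5
      rw [h4] at h6
      have h7 := Nat.le_of_dvd hr.pos h6
      nlinarith [hr.two_le]) with h | ⟨h, -⟩
    · exact h
    · exact absurd h hr2

/-- Coprime action with `[W, A] = W`: fixed points lie in the derived subgroup. -/
theorem mem_commutator_of_centralizer {A W : Subgroup G} (hA : A ≤ normalizer (W : Set G))
    (hcop : (Nat.card A).Coprime (Nat.card W)) (hW : ⁅W, A⁆ = W) (x : W)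
    (hx : (x : G) ∈ centralizer (A : Set G)) : x ∈ commutator W := by
  classical
  letI : Fintype A := Fintype.ofFinite A
  let φ : A →* MulAut (Abelianization W) := abelAct A W hA
  have hφ : ∀ (a : A) (w : W), φ a (Abelianization.of w) =
      Abelianization.of (conjHom A W hA a w) := fun a w => abelAct_of A W hA a w
  have hcardV : (Fintype.card A).Coprime (Nat.card (Abelianization W)) := by
    rw [← Nat.card_eq_fintype_card]
    exact hcop.coprime_dvd_right (Subgroup.card_quotient_dvd_card _)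
  have hcomm : ∀ w : W, Abelianization.of w ∈ commSubgroup φ := by
    have hle : W ≤ ((commSubgroup φ).comap Abelianization.of).map W.subtype := by
      calc W = ⁅W, A⁆ := hW.symm
        _ ≤ _ := ?_
      rw [Subgroup.commutator_le]
      intro k hk a ha
      have hval : (⁅k, a⁆ : G) = k * (a * k * a⁻¹)⁻¹ := by
        simp only [commutatorElement_def]; group
      have hmem : (⁅k, a⁆ : G) ∈ W := by
        rw [← hW]
        exact Subgroup.commutator_mem_commutator hk ha
      refine ⟨⟨⁅k, a⁆, hmem⟩, ?_, rfl⟩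
      have h2 : (⟨⁅k, a⁆, hmem⟩ : W) = (⟨k, hk⟩ : W) * (conjHom A W hA ⟨a, ha⟩ ⟨k, hk⟩)⁻¹ := by
        apply Subtype.ext
        rw [Subgroup.coe_mul, Subgroup.coe_inv, conjHom_coe]
        exact hval
      show Abelianization.of (⟨⁅k, a⁆, hmem⟩ : W) ∈ commSubgroup φ
      rw [h2, map_mul, map_inv, ← hφ]
      have h4 : φ ⟨a, ha⟩ (Abelianization.of (⟨k, hk⟩ : W)) *
          (Abelianization.of (⟨k, hk⟩ : W))⁻¹ ∈ commSubgroup φ :=
        Subgroup.subset_closure ⟨⟨a, ha⟩, _, rfl⟩
      have h5 := Subgroup.inv_mem _ h4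
      rw [mul_inv_rev, inv_inv] at h5
      exact h5
    intro w
    obtain ⟨w', hw', hww'⟩ := hle w.2
    have : w' = w := Subtype.ext hww'
    rwa [← this]
  have hfix : Abelianization.of x ∈ Cfsg.Agent.Lib.Coprime.Averaging.fixedSubgroup φ := by
    intro a
    rw [hφ]
    congr 1
    apply Subtype.ext
    rw [conjHom_coe]
    have h1 := Subgroup.mem_centralizer_iff.mp hx a a.2
    show (a : G) * x * (a : G)⁻¹ = x
    rw [h1]
    group
  have hmem : Abelianization.of x ∈
      Cfsg.Agent.Lib.Coprime.Averaging.fixedSubgroup φ ⊓ commSubgroup φ := ⟨hfix, hcomm x⟩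
  rw [fixed_inf_comm φ hcardV, Subgroup.mem_bot] at hmem
  exact (QuotientGroup.eq_one_iff x).mp hmem

/-- `|Q|` is coprime to `|H|` for a complement in the normalizer. -/
theorem coprime_of_complement {H Q : Subgroup G}
    (hHall : (Nat.card H).Coprime (H.subgroupOf (normalizer (H : Set G))).index)
    (hQ : Q ≤ normalizer (H : Set G)) (hQH : Q ⊓ H = ⊥) : (Nat.card Q).Coprime (Nat.card H) := by
  refine Nat.coprime_of_dvd ?_
  intro r hr h1 h2
  haveI : Fact r.Prime := ⟨hr⟩
  obtain ⟨x, hx⟩ := exists_prime_orderOf_dvd_card' (G := Q) r h1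
  have hxo : orderOf (x : G) = r := by rw [Subgroup.orderOf_coe, hx]
  have hxH : (x : G) ∈ H := mem_of_mem_normalizer_of_coprime' (hQ x.2) (by
    rw [hxo]
    exact Nat.Coprime.coprime_dvd_left h2 hHall)
  have h3 : (x : G) ∈ Q ⊓ H := ⟨x.2, hxH⟩
  rw [hQH, Subgroup.mem_bot] at h3
  rw [h3, orderOf_one] at hxo
  exact hr.one_lt.ne hxo

/-- An element of prime order fixed by `Q` lies in a Sylow subgroup of `H` centralized by `Q`. -/
theorem exists_sylow_centralized {H Q : Subgroup G} [IsZGroup H]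
    (hQ : Q ≤ normalizer (H : Set G)) (hcop : (Nat.card Q).Coprime (Nat.card H))
    {r : ℕ} [Fact r.Prime] {x : G} (hx : x ∈ H) (hxQ : x ∈ centralizer (Q : Set G))
    (hxr : orderOf x = r) :
    ∃ P : Sylow r H, x ∈ (P : Subgroup H).map H.subtype ∧
      Q ≤ centralizer ((((P : Subgroup H).map H.subtype : Subgroup G)) : Set G) := by
  have hr : r.Prime := Fact.out
  set U : Subgroup G := zpowers x with hU
  have hUH : U ≤ H := Subgroup.zpowers_le.mpr hx
  have hUp : IsPGroup r U := by
    refine IsPGroup.of_card (n := 1) ?_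
    rw [hU, Nat.card_zpowers, hxr, pow_one]
  have hUN : Q ≤ normalizer (U : Set G) := by
    apply Cfsg.Agent.Lib.Coprime.InvSylow.le_normalizer_of_forall_conj_mem
    intro a ha y hy
    obtain ⟨k, rfl⟩ := Subgroup.mem_zpowers_iff.mp hy
    have h1 : a * x = x * a := Subgroup.mem_centralizer_iff.mp hxQ a ha
    have h2 : a * x ^ k * a⁻¹ = x ^ k := by
      have : Commute a x := h1
      have h3 := (this.zpow_right k).eq
      rw [h3, mul_inv_cancel_right]
    rw [h2]
    exact Subgroup.zpow_mem _ (Subgroup.mem_zpowers x) k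
  obtain ⟨P, hUP, hPN⟩ := Cfsg.Agent.Lib.Coprime.InvSylow.exists_invariant_sylow_ge hQ hcop
    (Or.inr inferInstance) r U hUH hUp hUN
  refine ⟨P, hUP (Subgroup.mem_zpowers x), ?_⟩
  set T : Subgroup G := (P : Subgroup H).map H.subtype with hT
  have hTH : T ≤ H := Subgroup.map_subtype_le _
  have hTp : IsPGroup r T := P.2.map H.subtype
  let e : (P : Subgroup H) ≃* T := (P : Subgroup H).equivMapOfInjective H.subtype H.subtype_injective
  haveI hTc : IsCyclic T := isCyclic_of_surjective e e.surjective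
  have hcT : (Nat.card T).Coprime (Nat.card Q) :=
    hcop.symm.coprime_dvd_left (Subgroup.card_dvd_of_le hTH)
  rcases hTp.commutator_eq_bot_or_commutator_eq_self (K := Q) hPN hcT with h | h
  · rw [Subgroup.commutator_eq_bot_iff_le_centralizer] at h
    exact h
  · exfalso
    have h1 := (centralizer_inf_commutator_and_sup Q T hPN hcT.symm).1
    rw [Subgroup.commutator_comm, h] at h1
    have h2 : x ∈ (T ⊓ centralizer (Q : Set G)) ⊓ T :=
      ⟨⟨hUP (Subgroup.mem_zpowers x), hxQ⟩, hUP (Subgroup.mem_zpowers x)⟩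
    rw [h1, Subgroup.mem_bot] at h2
    rw [h2, orderOf_one] at hxr
    exact hr.one_lt.ne hxr

/-- The fixed point subgroup is a Hall subgroup of `G`. -/
theorem coprime_card_index_fixed {H Q : Subgroup G} [IsZGroup H]
    (hQ : Q ≤ normalizer (H : Set G)) (hcop : (Nat.card Q).Coprime (Nat.card H))
    (hH : (Nat.card H).Coprime H.index) :
    (Nat.card ↥(H ⊓ centralizer (Q : Set G))).Coprime (H ⊓ centralizer (Q : Set G)).index := by
  refine Nat.coprime_of_dvd ?_
  intro r hr h1 h2
  haveI : Fact r.Prime := ⟨hr⟩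
  obtain ⟨x, hx⟩ := exists_prime_orderOf_dvd_card' (G := ↥(H ⊓ centralizer (Q : Set G))) r h1
  have hxo : orderOf (x : G) = r := by rw [Subgroup.orderOf_coe, hx]
  obtain ⟨P, -, hP⟩ := exists_sylow_centralized hQ hcop x.2.1 x.2.2 hxo
  set T : Subgroup G := (P : Subgroup H).map H.subtype with hT
  have hTC : T ≤ H ⊓ centralizer (Q : Set G) := by
    refine le_inf (Subgroup.map_subtype_le _) ?_
    intro t ht
    rw [Subgroup.mem_centralizer_iff]
    intro a ha
    exact (Subgroup.mem_centralizer_iff.mp (hP ha) t ht).symm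
  have h3 : r ∣ T.index := h2.trans (Subgroup.index_dvd_of_le hTC)
  rw [hT, Subgroup.index_map_subtype] at h3
  have hrH : r ∣ Nat.card H := h1.trans (Subgroup.card_dvd_of_le inf_le_left)
  rcases (Nat.Prime.dvd_mul hr).mp h3 with h4 | h4
  · exact P.not_dvd_index h4
  · exact hr.one_lt.ne' (Nat.eq_one_of_dvd_coprimes hH hrH h4)

open scoped IsMulCommutative in
/-- `[H, Q]` has order prime to the fixed points. -/
theorem not_dvd_card_commutator {H Q : Subgroup G} [IsZGroup H]
    (hQ : Q ≤ normalizer (H : Set G)) (hcop : (Nat.card Q).Coprime (Nat.card H))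
    {r : ℕ} [Fact r.Prime] (hr : r ∣ Nat.card ↥(H ⊓ centralizer (Q : Set G))) :
    ¬ r ∣ Nat.card (⁅H, Q⁆ : Subgroup G) := by
  classical
  intro hrW
  have hrp : r.Prime := Fact.out
  obtain ⟨x, hx⟩ := exists_prime_orderOf_dvd_card' (G := ↥(H ⊓ centralizer (Q : Set G))) r hr
  have hxo : orderOf (x : G) = r := by rw [Subgroup.orderOf_coe, hx]
  obtain ⟨P₁, -, hP₁⟩ := exists_sylow_centralized hQ hcop x.2.1 x.2.2 hxo
  haveI hHs : Group.IsSolvable H := inferInstance
  set W : Subgroup G := ⁅H, Q⁆ with hW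
  have hWH : W ≤ H := commutator_le_left_of_le_normalizer hQ
  have hQW : Q ≤ normalizer (W : Set G) := commutator_le_normalizer_right hQ
  have hcopW : (Nat.card Q).Coprime (Nat.card W) := hcop.coprime_dvd_right (Subgroup.card_dvd_of_le hWH)
  have hWW : ⁅W, Q⁆ = W := commutator_commutator_eq hQ hcop (Or.inr hHs)
  haveI hZW : IsZGroup W := IsZGroup.of_injective (f := Subgroup.inclusion hWH)
    (Subgroup.inclusion_injective hWH)
  haveI hWs : Group.IsSolvable W := inferInstance
  obtain ⟨P₀, hP₀⟩ := Cfsg.Agent.Lib.Coprime.InvSylow.exists_invariant_sylow hQW hcopW (Or.inr hWs) r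
  set R : Subgroup G := (P₀ : Subgroup W).map W.subtype with hR
  have hRH : R ≤ H := (Subgroup.map_subtype_le _).trans hWH
  have hRp : IsPGroup r R := P₀.2.map W.subtype
  obtain ⟨P₂, hRP₂, hP₂⟩ := Cfsg.Agent.Lib.Coprime.InvSylow.exists_invariant_sylow_ge hQ hcop
    (Or.inr hHs) r R hRH hRp hP₀
  -- `Q` centralizes `P₂`
  have hP₁n : Q ≤ normalizer ((((P₁ : Subgroup H).map H.subtype : Subgroup G)) : Set G) :=
    hP₁.trans (Subgroup.centralizer_le_normalizer _)
  obtain ⟨c, hc, hcP⟩ := Cfsg.Agent.Lib.Coprime.InvSylow.invariant_sylow_conj hQ hcop (Or.inr hHs) r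
    P₁ P₂ hP₁n hP₂
  have hRQ : R ≤ centralizer (Q : Set G) := by
    intro t ht
    rw [Subgroup.mem_centralizer_iff]
    intro a ha
    obtain ⟨t', ht', rfl⟩ := hRP₂ ht
    have hcP' : (P₂ : Subgroup H) = MulAut.conj c • (P₁ : Subgroup H) := by
      rw [← hcP]
      rfl
    have ht'' : t' ∈ (P₂ : Subgroup H) := ht'
    rw [hcP', Cfsg.Agent.Lib.Coprime.SZ.mem_conj_smul] at ht''
    replace ht' := ht''
    have h1 : ((c⁻¹ * t' * c : H) : G) ∈ (P₁ : Subgroup H).map H.subtype := ⟨_, ht', rfl⟩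
    have h2 := Subgroup.mem_centralizer_iff.mp (hP₁ ha) _ h1
    have h3 := Subgroup.mem_centralizer_iff.mp hc a ha
    have h4 : ((c⁻¹ * t' * c : H) : G) = (c : G)⁻¹ * t' * c := by simp
    rw [h4] at h2
    show a * (t' : G) = (t' : G) * a
    calc a * (t' : G) = a * (c * ((c : G)⁻¹ * t' * c) * (c : G)⁻¹) := by group
      _ = (a * c) * ((c : G)⁻¹ * t' * c) * (c : G)⁻¹ := by group
      _ = (c * a) * ((c : G)⁻¹ * t' * c) * (c : G)⁻¹ := by rw [h3]
      _ = c * (a * ((c : G)⁻¹ * t' * c)) * (c : G)⁻¹ := by group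
      _ = c * (((c : G)⁻¹ * t' * c) * a) * (c : G)⁻¹ := by rw [← h2]
      _ = (t' : G) * (c * a) * (c : G)⁻¹ := by group
      _ = (t' : G) * (a * c) * (c : G)⁻¹ := by rw [h3]
      _ = (t' : G) * a := by group
  -- `P₀` lies in the derived subgroup of `W`
  have hP₀W' : (P₀ : Subgroup W) ≤ commutator W := by
    intro y hy
    apply mem_commutator_of_centralizer hQW hcopW hWW
    exact hRQ ⟨y, hy, rfl⟩
  -- so it is normal in `W`
  haveI hW'c : IsCyclic (commutator W) := IsZGroup.isCyclic_commutator W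
  have hnorm : ∀ w : W, ∀ y ∈ (P₀ : Subgroup W), w * y * w⁻¹ ∈ (P₀ : Subgroup W) := by
    intro w y hy
    set K₁ : Subgroup W := (P₀ : Subgroup W).map (MulAut.conj w).toMonoidHom with hK₁
    have hK₁W' : K₁ ≤ commutator W := by
      rintro _ ⟨z, hz, rfl⟩
      have hW'n : (commutator W).Normal := inferInstance
      exact hW'n.conj_mem z (hP₀W' hz) w
    have hK₁N : K₁ ≤ normalizer (((P₀ : Subgroup W)) : Set W) := by
      intro u hu
      apply Cfsg.Agent.Lib.Coprime.Three.mem_normalizer_of_conj_mem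
      intro v hv
      have h1 : (⟨u, hK₁W' hu⟩ : commutator W) * ⟨v, hP₀W' hv⟩ =
          ⟨v, hP₀W' hv⟩ * ⟨u, hK₁W' hu⟩ := mul_comm' _ _
      have h2 : u * v = v * u := congrArg Subtype.val h1
      rw [h2, mul_inv_cancel_right]
      exact hv
    have hK₁p : IsPGroup r K₁ := P₀.2.map _
    have hsup := hK₁p.to_sup_of_normal_right' P₀.2 hK₁N
    have hmax := P₀.is_maximal' hsup le_sup_right
    have h1 : K₁ ≤ (P₀ : Subgroup W) := hmax ▸ le_sup_left
    exact h1 ⟨y, hy, rfl⟩
  -- it is central in `W`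
  have hcent : W ≤ centralizer (R : Set G) := by
    rw [← hWW, Subgroup.commutator_le]
    intro w hw a ha
    rw [Subgroup.mem_centralizer_iff]
    intro t ht
    obtain ⟨t', ht', rfl⟩ := ht
    have h1 := hnorm ⟨w, hw⟩⁻¹ t' ht'
    have h2 : ((⟨w, hw⟩⁻¹ * t' * (⟨w, hw⟩⁻¹)⁻¹ : W) : G) ∈ R := ⟨_, h1, rfl⟩
    have h3 : ((⟨w, hw⟩⁻¹ * t' * (⟨w, hw⟩⁻¹)⁻¹ : W) : G) = w⁻¹ * t' * w := by simp
    rw [h3] at h2
    have h4 := Subgroup.mem_centralizer_iff.mp (hRQ h2) a ha
    have h5 := Subgroup.mem_centralizer_iff.mp (hRQ (show (W.subtype t') ∈ R from ⟨t', ht', rfl⟩))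
      a⁻¹ (Q.inv_mem ha)
    have h5' : a⁻¹ * (t' : G) = (t' : G) * a⁻¹ := h5
    simp only [commutatorElement_def]
    show (t' : G) * (w * a * w⁻¹ * a⁻¹) = (w * a * w⁻¹ * a⁻¹) * (t' : G)
    calc (t' : G) * (w * a * w⁻¹ * a⁻¹) = w * ((w⁻¹ * t' * w) * a) * w⁻¹ * a⁻¹ := by group
      _ = w * (a * (w⁻¹ * t' * w)) * w⁻¹ * a⁻¹ := by rw [h4]
      _ = w * a * w⁻¹ * (t' : G) * a⁻¹ := by group
      _ = w * a * w⁻¹ * ((t' : G) * a⁻¹) := by group
      _ = (w * a * w⁻¹ * a⁻¹) * (t' : G) := by rw [← h5']; group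
  -- Burnside's transfer
  have hN : normalizer (((P₀ : Subgroup W)) : Set W) ≤ centralizer (((P₀ : Subgroup W)) : Set W) := by
    intro u _
    rw [Subgroup.mem_centralizer_iff]
    intro v hv
    have h1 := Subgroup.mem_centralizer_iff.mp (hcent u.2) (v : G) ⟨v, hv, rfl⟩
    exact Subtype.ext h1
  have hcompl := MonoidHom.ker_transferSylow_isComplement' P₀ hN
  have hidx := hcompl.index_eq_card
  have hdvd : Nat.card (commutator W) ∣ (P₀ : Subgroup W).index := by
    rw [hidx]
    exact Subgroup.card_dvd_of_le (Abelianization.commutator_subset_ker _)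
  have hrP₀ : r ∣ Nat.card P₀ := P₀.dvd_card_of_dvd_card hrW
  have h8 : Nat.card P₀ ∣ Nat.card (commutator W) := Subgroup.card_dvd_of_le hP₀W'
  exact P₀.not_dvd_index (hrP₀.trans (h8.trans hdvd))

theorem card_sup_dvd_of_le_normalizer {A B : Subgroup G} (hB : B ≤ normalizer (A : Set G)) :
    Nat.card ↥(A ⊔ B) ∣ Nat.card A * Nat.card B := by
  set S : Subgroup G := A ⊔ B with hS
  have hAS : A ≤ S := le_sup_left
  have hSN : S ≤ normalizer (A : Set G) := sup_le le_normalizer hB
  haveI : (A.subgroupOf S).Normal := (Subgroup.normal_subgroupOf_iff_le_normalizer hAS).mpr hSN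
  rw [card_eq_card_mul_relIndex hAS]
  refine mul_dvd_mul_left _ ?_
  let f : B →* S ⧸ A.subgroupOf S :=
    (QuotientGroup.mk' _).comp (Subgroup.inclusion (le_sup_right : B ≤ S))
  have hf : Function.Surjective f := by
    intro q
    obtain ⟨s, rfl⟩ := QuotientGroup.mk'_surjective _ q
    obtain ⟨a, ha, b, hb, hab⟩ := (mem_sup_iff_of_le_normalizer hB (s : G)).mp s.2
    refine ⟨⟨b, hb⟩, ?_⟩
    show ((⟨b, le_sup_right (a := A) hb⟩ : S) : S ⧸ A.subgroupOf S) = (s : S ⧸ A.subgroupOf S)
    refine QuotientGroup.eq.mpr ?_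
    rw [Subgroup.mem_subgroupOf]
    show b⁻¹ * (s : G) ∈ A
    rw [← hab]
    have h1 := (mem_normalizer_iff.mp (hB (B.inv_mem hb)) a).mp ha
    have h2 : b⁻¹ * (a * b) = b⁻¹ * a * b⁻¹⁻¹ := by group
    rw [h2]
    exact h1
  have h3 := Subgroup.card_dvd_of_surjective f hf
  rwa [show Nat.card (S ⧸ A.subgroupOf S) = A.relIndex S from rfl] at h3

/-- The normal complement of the fixed points. -/
theorem exists_normal_complement {H Q O : Subgroup G} [IsZGroup H] [hOn : O.Normal]
    (hOc : (Nat.card O).Coprime (Nat.card H))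
    (htop : O ⊔ normalizer (H : Set G) = ⊤)
    (hQ : Q ≤ normalizer (H : Set G)) (hQH' : Q ⊔ H = normalizer (H : Set G))
    (hcop : (Nat.card Q).Coprime (Nat.card H)) :
    ∃ N : Subgroup G, N.Normal ∧ N.IsComplement' (H ⊓ centralizer (Q : Set G)) := by
  classical
  haveI hHs : Group.IsSolvable H := inferInstance
  set C : Subgroup G := H ⊓ centralizer (Q : Set G) with hC
  set W : Subgroup G := ⁅H, Q⁆ with hW
  have hCH : C ≤ H := inf_le_left
  have hWH : W ≤ H := commutator_le_left_of_le_normalizer hQ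
  have hQW : Q ≤ normalizer (W : Set G) := commutator_le_normalizer_right hQ
  have hHW : H ≤ normalizer (W : Set G) := commutator_le_normalizer_left hQ
  set K₀ : Subgroup G := W ⊔ Q with hK₀
  have hNK₀ : normalizer (H : Set G) ≤ normalizer (K₀ : Set G) := by
    rw [← hQH']
    refine sup_le ?_ ?_
    · intro a ha
      apply Cfsg.Agent.Lib.Coprime.Three.mem_normalizer_of_conj_mem
      intro x hx
      have hsub : K₀ ≤ K₀.comap (MulAut.conj a).toMonoidHom := by
        refine sup_le ?_ ?_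
        · intro y hy
          exact Subgroup.mem_sup_left ((mem_normalizer_iff.mp (hQW ha) y).mp hy)
        · intro y hy
          exact Subgroup.mem_sup_right (Q.mul_mem (Q.mul_mem ha hy) (Q.inv_mem ha))
      exact hsub hx
    · intro h hh
      apply Cfsg.Agent.Lib.Coprime.Three.mem_normalizer_of_conj_mem
      intro x hx
      have hsub : K₀ ≤ K₀.comap (MulAut.conj h).toMonoidHom := by
        refine sup_le ?_ ?_
        · intro y hy
          exact Subgroup.mem_sup_left ((mem_normalizer_iff.mp (hHW hh) y).mp hy)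
        · intro y hy
          have h1 : (MulAut.conj h).toMonoidHom y = ⁅h, y⁆ * y := by
            simp [commutatorElement_def]
          show (MulAut.conj h).toMonoidHom y ∈ K₀
          rw [h1]
          exact K₀.mul_mem (Subgroup.mem_sup_left (Subgroup.commutator_mem_commutator hh hy))
            (Subgroup.mem_sup_right hy)
      exact hsub hx
  set K : Subgroup G := O ⊔ K₀ with hK
  have hKn : K.Normal := sup_normal (H := K₀) (by
    rw [eq_top_iff, ← htop]
    exact sup_le le_sup_left (hNK₀.trans le_sup_right))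
  have hCcop : (Nat.card C).Coprime (Nat.card H) → True := fun _ => trivial
  have hWc : (Nat.card W).Coprime (Nat.card C) := by
    refine Nat.coprime_of_dvd ?_
    intro r hr h1 h2
    haveI : Fact r.Prime := ⟨hr⟩
    exact not_dvd_card_commutator hQ hcop h2 h1
  have hCdvd : Nat.card C ∣ Nat.card H := Subgroup.card_dvd_of_le hCH
  have hK₀c : (Nat.card K₀).Coprime (Nat.card C) := by
    refine Nat.Coprime.coprime_dvd_left (card_sup_dvd_of_le_normalizer hQW) ?_
    exact Nat.Coprime.mul_left hWc (hcop.coprime_dvd_right hCdvd)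
  have hKc : (Nat.card K).Coprime (Nat.card C) :=
    coprime_card_sup (hOc.coprime_dvd_right hCdvd) hK₀c
  refine ⟨K, hKn, ?_⟩
  have hsup : K ⊔ C = ⊤ := by
    rw [eq_top_iff, ← htop, ← hQH']
    have h1 : H ≤ K ⊔ C := by
      rw [← commutator_sup_centralizer hQ hcop (Or.inr hHs)]
      exact sup_le ((le_sup_left.trans le_sup_right).trans le_sup_left) le_sup_right
    refine sup_le (le_sup_left.trans le_sup_left) (sup_le ?_ h1)
    exact (le_sup_right.trans le_sup_right).trans le_sup_left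
  refine Subgroup.isComplement'_of_disjoint_and_mul_eq_univ
    (Subgroup.disjoint_of_coprime_natCard hKc) ?_
  haveI := hKn
  rw [← Subgroup.normal_mul, hsup]
  rfl

end Cfsg.Agent.Lib.Coprime.TIHall
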